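import Cfsg.Agent.Lib.Char.Linear
import Cfsg.Agent.Lib.Char.Perm
import Cfsg.Agent.Lib.SL2.Torus

/-!
# The principal series of `GL₂` and `SL₂`: explicit values
-/

set_option autoImplicit false

open Cfsg Cfsg.Agent.Char Cfsg.Agent.SL2 Matrix
open scoped ComplexConjugate MatrixGroups

namespace Cfsg.Agent.Ch2

theorem bijective_transversal {G : Type*} [Group G] (H : Subgroup G) {ι : Type*} (r : ι → G)
    (h1 : ∀ g, ∃ i, (r i)⁻¹ * g ∈ H) (h2 : ∀ i j, (r i)⁻¹ * r j ∈ H → i = j) :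
    Function.Bijective (fun p : ι × H => r p.1 * p.2) := by
  constructor
  · rintro ⟨i, a⟩ ⟨j, b⟩ h
    simp only at h
    have : i = j := h2 i j (by
      have e : (r i)⁻¹ * r j = a * (b : G)⁻¹ := by
        calc (r i)⁻¹ * r j = (r i)⁻¹ * (r j * b) * (b : G)⁻¹ := by group
          _ = a * (b : G)⁻¹ := by rw [← h]; group
      rw [e]; exact H.mul_mem a.2 (H.inv_mem b.2))
    subst this
    simpa using h
  · intro g
    obtain ⟨i, hi⟩ := h1 g
    exact ⟨(i, ⟨_, hi⟩), by simp⟩

/-- The value of an induced function as a sum over the conjugates in the subgroup. -/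
theorem indFun_eq_sum_isConj {G : Type*} [Group G] [Fintype G] (H : Subgroup G) [Fintype H]
    (θ : H → ℂ) (g : G) [DecidablePred fun h : H => IsConj g h] :
    indFun H θ g = (Nat.card H : ℂ)⁻¹ * (Nat.card (Subgroup.centralizer ({g} : Set G)) *
      ∑ h : H, if IsConj g h then θ h else 0) := by
  classical
  rw [indFun]
  congr 1
  have e : ∀ x : G, extendByZero H θ (x⁻¹ * g * x) =
      ∑ h : H, if x⁻¹ * g * x = h then θ h else 0 := by
    intro x
    have := sum_extendByZero_mul H θ (fun y => if x⁻¹ * g * x = y then 1 else 0)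
    simpa using this
  simp only [e]
  rw [Finset.sum_comm, Finset.mul_sum]
  refine Finset.sum_congr rfl fun h _ => ?_
  split_ifs with hc
  · rw [← Equiv.sum_comp (Equiv.inv G)]
    simp only [Equiv.inv_apply, inv_inv]
    rw [← card_conjugators hc, Nat.card_eq_fintype_card, Fintype.card_subtype, ← Finset.sum_boole,
      Finset.sum_mul]
    simp
  · rw [mul_zero]
    refine Finset.sum_eq_zero fun x _ => if_neg fun hx => hc ?_
    exact isConj_iff.mpr ⟨x⁻¹, by simpa using hx⟩

theorem indFun_apply_of_two_conj {G : Type*} [Group G] [Fintype G] (H : Subgroup G)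
    (θ : H → ℂ) (c c' : H) (hne : c ≠ c') (hcc : IsConj (c : G) c')
    (huniq : ∀ y : H, IsConj (c : G) y → y = c ∨ y = c')
    (hcard : Nat.card (Subgroup.centralizer ({(c : G)} : Set G)) = Nat.card H) :
    indFun H θ c = θ c + θ c' := by
  classical
  have := Fintype.ofFinite H
  rw [indFun_eq_sum_isConj, hcard, ← mul_assoc, inv_mul_cancel₀ natCard_ne_zero, one_mul,
    ← Finset.sum_subset (Finset.subset_univ {c, c'}), Finset.sum_pair hne, if_pos (IsConj.refl _),
    if_pos hcc]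
  intro y _ hy
  rw [if_neg]
  intro h
  exact hy (by simpa using huniq y h)

/-- Constituents of a generalized character of norm two. -/
theorem eq_or_eq_of_norm_two {G : Type*} [Group G] [Fintype G] {f χ ψ φ : G → ℂ}
    (hf : IsGeneralizedCharacter G f) (h2 : classInner f f = 2) (hχ : IsIrrCharacter G χ)
    (hψ : IsIrrCharacter G ψ) (hne : χ ≠ ψ) (h1 : classInner f χ ≠ 0) (h1' : classInner f ψ ≠ 0)
    (hφ : IsIrrCharacter G φ) (h : classInner f φ ≠ 0) : φ = χ ∨ φ = ψ := by
  obtain ⟨a, b, m, n, ha, hb, -, -, -, rfl⟩ := exists_of_inner_self_two hf h2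
  rcases eq_or_eq_of_inner_ne_zero ha hb hχ _ _ h1 with rfl | rfl <;>
  rcases eq_or_eq_of_inner_ne_zero ha hb hψ _ _ h1' with rfl | rfl <;>
  rcases eq_or_eq_of_inner_ne_zero ha hb hφ _ _ h with rfl | rfl <;> simp_all

variable {F : Type*} [Field F]

/-- No eigenvalue in the ground field. -/
def NoRoot (m : Matrix (Fin 2) (Fin 2) F) : Prop := ∀ c : F, c ^ 2 - m.trace * c + m.det ≠ 0

theorem noRoot_iff (m : Matrix (Fin 2) (Fin 2) F) :
    (∀ (c : F) (v : Fin 2 → F), v ≠ 0 → m.mulVec v ≠ c • v) ↔ NoRoot m := noEigen_iff m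

theorem not_noRoot_of_upper {m : Matrix (Fin 2) (Fin 2) F} (h : m 1 0 = 0) : ¬ NoRoot m := by
  intro hn
  apply hn (m 0 0)
  rw [trace_fin_two, det_fin_two, h]; ring

theorem noRoot_congr {m n : Matrix (Fin 2) (Fin 2) F} (ht : m.trace = n.trace)
    (hd : m.det = n.det) : NoRoot m ↔ NoRoot n := by
  simp only [NoRoot, ht, hd]

theorem SL_noRoot_iff (g : SL(2, F)) : NoRoot g.1 ↔ ∀ c : F, c ^ 2 - g.1.trace * c + 1 ≠ 0 := by
  simp only [NoRoot, g.2]

theorem mem_upperTriangularGL (g : GL (Fin 2) F) : g ∈ upperTriangularGL 2 F ↔ g.1 1 0 = 0 := by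
  change (g : Matrix (Fin 2) (Fin 2) F).BlockTriangular id ↔ _
  constructor
  · intro h; exact h (show (0 : Fin 2) < 1 by decide)
  · intro h i j hij
    fin_cases i <;> fin_cases j <;> simp_all

/-- The Borel subgroup of `SL₂`. -/
abbrev BS (F : Type*) [Field F] : Subgroup SL(2, F) :=
  (upperTriangularGL 2 F).comap SpecialLinearGroup.toGL

theorem mem_BS (g : SL(2, F)) : g ∈ BS F ↔ g.1 1 0 = 0 :=
  mem_upperTriangularGL (SpecialLinearGroup.toGL g)

/-- Coset representative moving the first coordinate line to the line through `(t, 1)`. -/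
def rp (t : F) : SL(2, F) := ⟨!![t, -1; 1, 0], by simp [det_fin_two]⟩

/-- Coset representatives of the Borel subgroup. -/
def rpo : Option F → SL(2, F)
  | none => 1
  | some t => rp t

theorem rp_inv_mul (t : F) (m : Matrix (Fin 2) (Fin 2) F) :
    ((rp t)⁻¹ : SL(2, F)).1 * m = !![m 1 0, m 1 1; t * m 1 0 - m 0 0, t * m 1 1 - m 0 1] := by
  rw [SL_coe_inv]
  apply mat_ext <;> simp [rp, mul_apply2] <;> ring

theorem rp_conj (t : F) (m : Matrix (Fin 2) (Fin 2) F) :
    ((rp t)⁻¹ : SL(2, F)).1 * m * (rp t).1 = !![m 1 0 * t + m 1 1, -m 1 0;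
      m 1 0 * t ^ 2 + (m 1 1 - m 0 0) * t - m 0 1, m 0 0 - t * m 1 0] := by
  rw [rp_inv_mul]
  apply mat_ext <;> simp [rp, mul_apply2]
  ring

theorem rpo_exists (m : Matrix (Fin 2) (Fin 2) F) :
    ∃ i, (((rpo i)⁻¹ : SL(2, F)).1 * m) 1 0 = 0 := by
  by_cases h : m 1 0 = 0
  · exact ⟨none, by simpa [rpo] using h⟩
  · refine ⟨some (m 0 0 / m 1 0), ?_⟩
    simp only [rpo, rp_inv_mul]
    simp [h]

theorem rpo_inj (i j : Option F) (h : (((rpo i)⁻¹ : SL(2, F)).1 * (rpo j).1) 1 0 = 0) : i = j := by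
  rcases i with _ | s <;> rcases j with _ | t
  · rfl
  · simp [rpo, rp] at h
  · simp only [rpo, rp_inv_mul] at h
    simp at h
  · simp only [rpo, rp_inv_mul] at h
    simp [rp, sub_eq_zero] at h
    rw [h]

theorem bijective_rpo_SL : Function.Bijective (fun p : Option F × BS F => rpo p.1 * p.2) :=
  bijective_transversal _ _ (fun g => by simp only [mem_BS]; exact rpo_exists g.1)
    (fun i j h => rpo_inj i j (by rwa [mem_BS] at h))

theorem bijective_rpo_GL : Function.Bijective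
    (fun p : Option F × upperTriangularGL 2 F => SpecialLinearGroup.toGL (rpo p.1) * p.2) :=
  bijective_transversal _ (fun i => SpecialLinearGroup.toGL (rpo i))
    (fun g => by
      obtain ⟨i, hi⟩ := rpo_exists g.1
      exact ⟨i, by rw [mem_upperTriangularGL, ← map_inv]; exact hi⟩)
    (fun i j h => rpo_inj i j (by rw [mem_upperTriangularGL, ← map_inv] at h; exact h))

/-- A matrix with an eigenvalue can be made upper triangular. -/
theorem exists_rpo_conj {m : Matrix (Fin 2) (Fin 2) F} (h : ¬ NoRoot m) :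
    ∃ x : SL(2, F), ((x⁻¹ : SL(2, F)).1 * m * x.1) 1 0 = 0 := by
  by_cases h0 : m 1 0 = 0
  · exact ⟨1, by simpa using h0⟩
  · simp only [NoRoot, not_forall, not_not] at h
    obtain ⟨c, hc⟩ := h
    refine ⟨rp ((c - m 1 1) / m 1 0), ?_⟩
    rw [rp_conj]
    rw [trace_fin_two, det_fin_two] at hc
    simp only [of_apply, cons_val', cons_val_zero, cons_val_one, cons_val_fin_one]
    field_simp
    linear_combination hc

theorem SL_class_ext {f f' : SL(2, F) → ℂ} (hf : IsClassFunction _ f) (hf' : IsClassFunction _ f')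
    (h1 : ∀ g : SL(2, F), g.1 1 0 = 0 → f g = f' g) (h2 : ∀ g : SL(2, F), NoRoot g.1 → f g = f' g) :
    f = f' := by
  ext g
  by_cases h : NoRoot g.1
  · exact h2 g h
  · obtain ⟨x, hx⟩ := exists_rpo_conj h
    rw [← class_conj' hf g x, ← class_conj' hf' g x]
    exact h1 _ hx

theorem GL_class_ext {f f' : GL (Fin 2) F → ℂ} (hf : IsClassFunction _ f)
    (hf' : IsClassFunction _ f') (h1 : ∀ g : GL (Fin 2) F, g.1 1 0 = 0 → f g = f' g)
    (h2 : ∀ g : GL (Fin 2) F, NoRoot g.1 → f g = f' g) : f = f' := by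
  ext g
  by_cases h : NoRoot g.1
  · exact h2 g h
  · obtain ⟨x, hx⟩ := exists_rpo_conj h
    rw [← class_conj' hf g (SpecialLinearGroup.toGL x),
      ← class_conj' hf' g (SpecialLinearGroup.toGL x)]
    refine h1 _ ?_
    rw [← map_inv]; exact hx

variable [Fintype F] [DecidableEq F]

/-- The sum over the eigenlines of a function of the two diagonal entries. -/
noncomputable def Wm (φ : F → F → ℂ) (m : Matrix (Fin 2) (Fin 2) F) : ℂ :=
  (if m 1 0 = 0 then φ (m 0 0) (m 1 1) else 0) +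
    ∑ t : F, if m 1 0 * t ^ 2 + (m 1 1 - m 0 0) * t - m 0 1 = 0 then
      φ (m 1 0 * t + m 1 1) (m 0 0 - t * m 1 0) else 0

theorem Wm_split (φ : F → F → ℂ) {m : Matrix (Fin 2) (Fin 2) F} (h : m 1 0 = 0)
    (hne : m 0 0 ≠ m 1 1) : Wm φ m = φ (m 0 0) (m 1 1) + φ (m 1 1) (m 0 0) := by
  have hd : m 1 1 - m 0 0 ≠ 0 := sub_ne_zero.mpr hne.symm
  simp only [Wm, h, if_true, zero_mul, zero_add, mul_zero, sub_zero]
  rw [Finset.sum_eq_single (m 0 1 / (m 1 1 - m 0 0))]
  · rw [if_pos (by field_simp; ring)]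
  · intro t _ ht
    rw [if_neg]
    intro h'
    apply ht
    field_simp
    linear_combination h'
  · simp

theorem Wm_par (φ : F → F → ℂ) {m : Matrix (Fin 2) (Fin 2) F} (h : m 1 0 = 0)
    (he : m 0 0 = m 1 1) (hb : m 0 1 ≠ 0) : Wm φ m = φ (m 0 0) (m 0 0) := by
  simp [Wm, h, he, hb]

theorem Wm_scal (φ : F → F → ℂ) {m : Matrix (Fin 2) (Fin 2) F} (h : IsScal m) :
    Wm φ m = ((Fintype.card F : ℂ) + 1) * φ (m 0 0) (m 0 0) := by
  obtain ⟨h1, h2, h3⟩ := h
  simp [Wm, h1, h2, h3]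
  ring

theorem Wm_noRoot (φ : F → F → ℂ) {m : Matrix (Fin 2) (Fin 2) F} (h : NoRoot m) :
    Wm φ m = 0 := by
  have h0 : m 1 0 ≠ 0 := fun h' => not_noRoot_of_upper h' h
  rw [Wm, if_neg h0, zero_add]
  refine Finset.sum_eq_zero fun t _ => if_neg fun ht => h (m 1 0 * t + m 1 1) ?_
  rw [trace_fin_two, det_fin_two]
  linear_combination (m 1 0) * ht

omit [Fintype F] [DecidableEq F] in
theorem upper_mul_00 {m n : Matrix (Fin 2) (Fin 2) F} (hn : n 1 0 = 0) :
    (m * n) 0 0 = m 0 0 * n 0 0 := by simp [mul_apply2, hn]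

omit [Fintype F] [DecidableEq F] in
theorem upper_mul_11 {m n : Matrix (Fin 2) (Fin 2) F} (hm : m 1 0 = 0) :
    (m * n) 1 1 = m 1 1 * n 1 1 := by simp [mul_apply2, hm]

/-- The principal series character of `SL₂`. -/
noncomputable def W (α : MulChar F ℂ) : SL(2, F) → ℂ :=
  indFun (BS F) (fun b => α (((b : SL(2, F)) : Matrix (Fin 2) (Fin 2) F) 0 0))

/-- The principal series character of `GL₂`. -/
noncomputable def WG (α β : MulChar F ℂ) : GL (Fin 2) F → ℂ :=
  indFun (upperTriangularGL 2 F) (fun b => α (((b : GL (Fin 2) F) : Matrix (Fin 2) (Fin 2) F) 0 0) *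
    β (((b : GL (Fin 2) F) : Matrix (Fin 2) (Fin 2) F) 1 1))

omit [Fintype F] [DecidableEq F] in
theorem isIrr_borelChar (α : MulChar F ℂ) : IsIrrCharacter (BS F)
    (fun b => α (((b : SL(2, F)) : Matrix (Fin 2) (Fin 2) F) 0 0)) := by
  refine isIrr_of_mul (by simp) fun a b => ?_
  rw [← map_mul, ← upper_mul_00 ((mem_BS _).mp b.2)]; rfl

omit [Fintype F] [DecidableEq F] in
theorem isIrr_borelCharG (α β : MulChar F ℂ) : IsIrrCharacter (upperTriangularGL 2 F)
    (fun b => α (((b : GL (Fin 2) F) : Matrix (Fin 2) (Fin 2) F) 0 0) *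
      β (((b : GL (Fin 2) F) : Matrix (Fin 2) (Fin 2) F) 1 1)) := by
  refine isIrr_of_mul (by simp) fun a b => ?_
  rw [Subgroup.coe_mul, Units.val_mul, upper_mul_00 ((mem_upperTriangularGL _).mp b.2),
    upper_mul_11 ((mem_upperTriangularGL _).mp a.2), map_mul, map_mul]
  ring

theorem isChar_W (α : MulChar F ℂ) : IsCharacter _ (W α) :=
  isChar_indFun _ (isChar_of_irr (isIrr_borelChar α))

theorem isChar_WG (α β : MulChar F ℂ) : IsCharacter _ (WG α β) :=
  isChar_indFun _ (isChar_of_irr (isIrr_borelCharG α β))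

theorem W_eq (α : MulChar F ℂ) (g : SL(2, F)) : W α g = Wm (fun a _ => α a) g.1 := by
  rw [W, indFun_eq_sum_transversal _ (isClass_of_irr (isIrr_borelChar α)) _ bijective_rpo_SL,
    Fintype.sum_option, Wm]
  have e : ∀ x : SL(2, F), extendByZero (BS F)
      (fun b => α (((b : SL(2, F)) : Matrix (Fin 2) (Fin 2) F) 0 0)) x =
      if x.1 1 0 = 0 then α (x.1 0 0) else 0 := by
    intro x
    split_ifs with h
    · rw [extendByZero_of_mem _ _ ((mem_BS x).mpr h)]
    · rw [extendByZero_of_notMem _ _ (by rwa [mem_BS])]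
  simp only [e]
  congr 1
  · simp [rpo]
  · refine Finset.sum_congr rfl fun t _ => ?_
    simp only [rpo, SL_coe_mul, rp_conj]
    simp

theorem WG_eq (α β : MulChar F ℂ) (g : GL (Fin 2) F) :
    WG α β g = Wm (fun a d => α a * β d) g.1 := by
  rw [WG, indFun_eq_sum_transversal _ (isClass_of_irr (isIrr_borelCharG α β))
    (fun i => SpecialLinearGroup.toGL (rpo i)) bijective_rpo_GL, Fintype.sum_option, Wm]
  have e : ∀ x : GL (Fin 2) F, extendByZero (upperTriangularGL 2 F)
      (fun b => α (((b : GL (Fin 2) F) : Matrix (Fin 2) (Fin 2) F) 0 0) *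
        β (((b : GL (Fin 2) F) : Matrix (Fin 2) (Fin 2) F) 1 1)) x =
      if x.1 1 0 = 0 then α (x.1 0 0) * β (x.1 1 1) else 0 := by
    intro x
    split_ifs with h
    · rw [extendByZero_of_mem _ _ ((mem_upperTriangularGL x).mpr h)]
    · rw [extendByZero_of_notMem _ _ (by rwa [mem_upperTriangularGL])]
  simp only [e]
  congr 1
  · simp [rpo]
  · refine Finset.sum_congr rfl fun t _ => ?_
    have : (((SpecialLinearGroup.toGL (rpo (some t)))⁻¹ * g *
        SpecialLinearGroup.toGL (rpo (some t)) : GL (Fin 2) F) : Matrix (Fin 2) (Fin 2) F) =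
        ((rp t)⁻¹ : SL(2, F)).1 * g.1 * (rp t).1 := by
      rw [← map_inv]; rfl
    simp only [this, rp_conj]
    simp

end Cfsg.Agent.Ch2
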