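import Cfsg.Agent.Lib.Char.Princ

/-!
# Characters of `SL₂`: principal series, Steinberg character, cuspidal virtual characters
-/

set_option autoImplicit false

open Cfsg Cfsg.Agent.Char Cfsg.Agent.SL2 Matrix
open scoped ComplexConjugate MatrixGroups

namespace Cfsg.Agent.Ch2

variable {F : Type*} [Field F]

theorem coe_dg_mul_up (a : Fˣ) (t : F) :
    (dg a * up t : SL(2, F)).1 = !![(a : F), a * t; 0, (a : F)⁻¹] := by
  rw [SL_coe_mul]; apply mat_ext <;> simp [mul_apply2]

theorem SL_upper_det {g : SL(2, F)} (h : g.1 1 0 = 0) : g.1 0 0 * g.1 1 1 = 1 := by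
  have := SL_det g; rwa [h, mul_zero, sub_zero] at this

theorem SL_upper_11 {g : SL(2, F)} (h : g.1 1 0 = 0) : g.1 1 1 = (g.1 0 0)⁻¹ :=
  (eq_inv_of_mul_eq_one_right (SL_upper_det h))

theorem SL_upper_ne_zero {g : SL(2, F)} (h : g.1 1 0 = 0) : g.1 0 0 ≠ 0 :=
  left_ne_zero_of_mul_eq_one (SL_upper_det h)

theorem SL_upper_eq_iff {g : SL(2, F)} (h : g.1 1 0 = 0) : g.1 0 0 = g.1 1 1 ↔ g.1 0 0 ^ 2 = 1 := by
  have h0 := SL_upper_ne_zero h
  have h1 := SL_upper_det h
  constructor
  · intro e; rw [sq]; nth_rewrite 2 [e]; exact h1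
  · intro e; exact mul_left_cancel₀ h0 (by rw [h1, ← sq, e])

/-- Parametrisation of the Borel subgroup of `SL₂`. -/
noncomputable def borelEquiv (F : Type*) [Field F] : Fˣ × F ≃ BS F :=
  Equiv.ofBijective (fun p => ⟨dg p.1 * up p.2, by rw [mem_BS, coe_dg_mul_up]; simp⟩) ⟨by
    rintro ⟨a, s⟩ ⟨b, t⟩ h
    have h' := congrArg (fun x : BS F => x.1.1) h
    simp only [coe_dg_mul_up, mat_ext_iff] at h'
    simp only [of_apply, cons_val', cons_val_zero, cons_val_one, cons_val_fin_one] at h'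
    obtain ⟨h1, h2, -, -⟩ := h'
    obtain rfl : a = b := Units.ext h1
    rw [mul_left_cancel₀ a.ne_zero h2], by
    rintro ⟨g, hg⟩
    rw [mem_BS] at hg
    have h0 := SL_upper_ne_zero hg
    refine ⟨(Units.mk0 _ h0, (g.1 0 0)⁻¹ * g.1 0 1), Subtype.ext (SL_ext ?_)⟩
    simp only [coe_dg_mul_up]
    apply mat_ext <;> simp [h0, hg, SL_upper_11 hg]⟩

theorem borelEquiv_apply (p : Fˣ × F) : (borelEquiv F p : SL(2, F)) = dg p.1 * up p.2 := rfl

theorem card_BS [Finite F] : Nat.card (BS F) = (Nat.card F - 1) * Nat.card F := by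
  rw [← Nat.card_congr (borelEquiv F), Nat.card_prod, Nat.card_units]

variable [Fintype F] [DecidableEq F]

omit [DecidableEq F] in
theorem q_ne_zero : (Fintype.card F : ℂ) ≠ 0 := by exact_mod_cast Fintype.card_ne_zero

omit [DecidableEq F] in
theorem q_sub_one_ne_zero : (Fintype.card F : ℂ) - 1 ≠ 0 := by
  rw [sub_ne_zero]
  exact_mod_cast (Fintype.one_lt_card (α := F)).ne'

omit [Field F] [DecidableEq F] in
theorem q_add_one_ne_zero : (Fintype.card F : ℂ) + 1 ≠ 0 := by
  exact_mod_cast Nat.succ_ne_zero (Fintype.card F)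

omit [DecidableEq F] in
theorem cast_card_BS : (Nat.card (BS F) : ℂ) = ((Fintype.card F : ℂ) - 1) * Fintype.card F := by
  rw [card_BS, Nat.cast_mul, Nat.cast_sub Nat.card_pos, Nat.card_eq_fintype_card]; simp

omit [DecidableEq F] in
theorem cast_card_SL2 : (Nat.card SL(2, F) : ℂ) =
    Fintype.card F * ((Fintype.card F : ℂ) - 1) * (Fintype.card F + 1) := by
  rw [card_SL2', Nat.cast_mul, Nat.cast_mul, Nat.cast_sub Nat.card_pos, Nat.card_eq_fintype_card]
  simp

/-- The constant term of a function along the unipotent radical. -/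
noncomputable def cst (f : SL(2, F) → ℂ) (a : Fˣ) : ℂ := ∑ t : F, f (dg a * up t)

theorem cst_of_sq {f : SL(2, F) → ℂ} {a : Fˣ} (ha : (a : F) ^ 2 = 1) {s p : ℂ}
    (hs : ∀ g : SL(2, F), IsScal g.1 → g.1 0 0 = a → f g = s)
    (hp : ∀ g : SL(2, F), g.1 1 0 = 0 → g.1 0 0 = g.1 1 1 → g.1 0 1 ≠ 0 → g.1 0 0 = a → f g = p) :
    cst f a = s + ((Fintype.card F : ℂ) - 1) * p := by
  have ha' : (a : F) = (a : F)⁻¹ := eq_inv_of_mul_eq_one_right (by rw [← sq, ha])
  rw [cst, ← Finset.add_sum_erase _ _ (Finset.mem_univ 0)]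
  congr 1
  · refine hs _ ?_ ?_ <;> rw [coe_dg_mul_up]
    · simp [IsScal, ← ha']
    · simp
  · rw [Finset.sum_congr rfl (g := fun _ => p)]
    · simp [Finset.card_erase_of_mem, Nat.cast_sub Fintype.card_pos]
    · intro t ht
      refine hp _ ?_ ?_ ?_ ?_ <;> rw [coe_dg_mul_up]
      · simp
      · simp [← ha']
      · simpa using ht
      · simp

omit [DecidableEq F] in
theorem cst_of_ne {f : SL(2, F) → ℂ} {a : Fˣ} (ha : (a : F) ^ 2 ≠ 1) {h : ℂ}
    (hh : ∀ g : SL(2, F), g.1 1 0 = 0 → g.1 0 0 ≠ g.1 1 1 → g.1 0 0 = a → f g = h) :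
    cst f a = (Fintype.card F : ℂ) * h := by
  rw [cst, Finset.sum_congr rfl (g := fun _ => h)]
  · simp
  · intro t _
    have h0 : (dg a * up t : SL(2, F)).1 1 0 = 0 := by rw [coe_dg_mul_up]; simp
    have h1 : (dg a * up t : SL(2, F)).1 0 0 = a := by rw [coe_dg_mul_up]; simp
    exact hh _ h0 (by rw [Ne, SL_upper_eq_iff h0, h1]; exact ha) h1

theorem inner_W {f : SL(2, F) → ℂ} (hf : IsClassFunction _ f) (α : MulChar F ℂ) :
    classInner f (W α) = (((Fintype.card F : ℂ) - 1) * Fintype.card F)⁻¹ *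
      ∑ a : Fˣ, cst f a * conj (α a) := by
  classical
  rw [W, inner_indFun_right _ _ hf, classInner, cast_card_BS, ← (borelEquiv F).sum_comp,
    Fintype.sum_prod_type]
  congr 1
  refine Finset.sum_congr rfl fun a _ => ?_
  simp only [borelEquiv_apply, coe_dg_mul_up, cst, Finset.sum_mul]
  simp

theorem isClass_W (α : MulChar F ℂ) : IsClassFunction _ (W α) := isClass_of_isChar (isChar_W α)

theorem W_scal (α : MulChar F ℂ) {g : SL(2, F)} (h : IsScal g.1) :
    W α g = ((Fintype.card F : ℂ) + 1) * α (g.1 0 0) := by rw [W_eq, Wm_scal _ h]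

theorem W_par (α : MulChar F ℂ) {g : SL(2, F)} (h : g.1 1 0 = 0) (he : g.1 0 0 = g.1 1 1)
    (hb : g.1 0 1 ≠ 0) : W α g = α (g.1 0 0) := by rw [W_eq, Wm_par _ h he hb]

theorem W_split (α : MulChar F ℂ) {g : SL(2, F)} (h : g.1 1 0 = 0) (hne : g.1 0 0 ≠ g.1 1 1) :
    W α g = α (g.1 0 0) + α (g.1 1 1) := by rw [W_eq, Wm_split _ h hne]

theorem W_noRoot (α : MulChar F ℂ) {g : SL(2, F)} (h : NoRoot g.1) : W α g = 0 := by
  rw [W_eq, Wm_noRoot _ h]

theorem W_one (α : MulChar F ℂ) : W α 1 = (Fintype.card F : ℂ) + 1 := by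
  rw [W_scal α isScal_one]; simp

theorem cst_W (α : MulChar F ℂ) (a : Fˣ) :
    cst (W α) a = (Fintype.card F : ℂ) * (α a + α⁻¹ a) := by
  by_cases ha : (a : F) ^ 2 = 1
  · have ha' : (a : F)⁻¹ = a := (eq_inv_of_mul_eq_one_right (by rw [← sq, ha])).symm
    rw [cst_of_sq ha (fun g h1 h2 => by rw [W_scal α h1, h2])
      (fun g h1 h2 h3 h4 => by rw [W_par α h1 h2 h3, h4]), MulChar.inv_apply', ha']
    ring
  · rw [cst_of_ne ha (fun g h1 h2 h3 => by rw [W_split α h1 h2, SL_upper_11 h1, h3]),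
      MulChar.inv_apply']

open scoped Classical in
theorem inner_W_W (α β : MulChar F ℂ) :
    classInner (W α) (W β) = (if α = β then 1 else 0) + (if α = β⁻¹ then 1 else 0) := by
  rw [inner_W (isClass_W α)]
  simp only [cst_W, mul_assoc, add_mul, ← Finset.mul_sum, Finset.sum_add_distrib]
  have h1 := sum_units_mulChar_mul_conj α β
  have h2 := sum_units_mulChar_mul_conj α⁻¹ β
  rw [Nat.card_eq_fintype_card] at h1 h2
  rw [h1, h2]
  have := q_ne_zero (F := F)
  have := q_sub_one_ne_zero (F := F)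
  simp only [show α⁻¹ = β ↔ α = β⁻¹ from inv_eq_iff_eq_inv]
  split_ifs <;> field_simp <;> simp

theorem W_inv (α : MulChar F ℂ) : W α⁻¹ = W α := by
  refine SL_class_ext (isClass_W _) (isClass_W _) (fun g h => ?_)
    (fun g h => by rw [W_noRoot _ h, W_noRoot _ h])
  by_cases he : g.1 0 0 = g.1 1 1
  · have h1 : (g.1 0 0)⁻¹ = g.1 0 0 := by rw [← SL_upper_11 h, he]
    by_cases hb : g.1 0 1 = 0
    · rw [W_scal _ ⟨hb, h, he⟩, W_scal _ ⟨hb, h, he⟩, MulChar.inv_apply', h1]
    · rw [W_par _ h he hb, W_par _ h he hb, MulChar.inv_apply', h1]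
  · rw [W_split _ h he, W_split _ h he, MulChar.inv_apply', MulChar.inv_apply', SL_upper_11 h,
      inv_inv, add_comm]

theorem inv_eq_self_iff_sq {A : Type*} [Group A] {a : A} : a = a⁻¹ ↔ a ^ 2 = 1 := by
  rw [eq_inv_iff_mul_eq_one, sq]

theorem isIrr_W {α : MulChar F ℂ} (h : α ^ 2 ≠ 1) : IsIrrCharacter _ (W α) := by
  refine isIrr_of_inner_self (isChar_W α) ?_
  rw [inner_W_W, if_pos rfl, if_neg (by rwa [inv_eq_self_iff_sq]), add_zero]

theorem inner_W_self_of_sq {α : MulChar F ℂ} (h : α ^ 2 = 1) : classInner (W α) (W α) = 2 := by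
  rw [inner_W_W, if_pos rfl, if_pos (by rwa [inv_eq_self_iff_sq])]; norm_num

theorem W_eq_iff {α β : MulChar F ℂ} : W α = W β ↔ α = β ∨ α = β⁻¹ := by
  constructor
  · intro h
    by_contra hcon
    push Not at hcon
    have h1 := inner_W_W α β
    rw [if_neg hcon.1, if_neg hcon.2, ← h, inner_W_W, if_pos rfl] at h1
    split_ifs at h1 <;> norm_num at h1
  · rintro (rfl | rfl)
    exacts [rfl, W_inv β]

open scoped Classical in
theorem inner_one_W (α : MulChar F ℂ) :
    classInner (1 : SL(2, F) → ℂ) (W α) = if α = 1 then 1 else 0 := by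
  rw [inner_W isClass_one]
  have h1 := sum_units_mulChar_mul_conj 1 α
  simp only [cst, Pi.one_apply, Finset.sum_const, Finset.card_univ, nsmul_eq_mul, mul_one,
    ← Finset.mul_sum]
  simp only [MulChar.one_apply_coe, one_mul, Nat.card_eq_fintype_card] at h1
  rw [h1]
  have := q_ne_zero (F := F)
  have := q_sub_one_ne_zero (F := F)
  simp only [show 1 = α ↔ α = 1 from eq_comm]
  split_ifs
  · field_simp
  · simp

open scoped Classical in
theorem inner_W_one (α : MulChar F ℂ) :
    classInner (W α) (1 : SL(2, F) → ℂ) = if α = 1 then 1 else 0 := by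
  rw [inner_char_comm (isChar_W α) isChar_one, inner_one_W]

/-- The Steinberg character of `SL₂`. -/
noncomputable def St (F : Type*) [Field F] [Fintype F] [DecidableEq F] : SL(2, F) → ℂ := W 1 - 1

theorem W_one_eq : W (1 : MulChar F ℂ) = 1 + St F := by simp [St]

theorem isIrr_St : IsIrrCharacter _ (St F) := by
  refine isIrr_of_inner_self (isChar_sub_irr (isChar_W 1) isIrr_one (by simp [inner_W_one])) ?_
  rw [St, Char.inner_sub_left, Char.inner_sub_right, Char.inner_sub_right, inner_W_self_of_sq (one_pow 2),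
    inner_W_one, inner_one_W, inner_one_one]
  norm_num

theorem St_scal {g : SL(2, F)} (h : IsScal g.1) : St F g = Fintype.card F := by
  simp [St, W_scal _ h, MulChar.one_apply (SL_upper_ne_zero h.2.1).isUnit]

theorem St_par {g : SL(2, F)} (h : g.1 1 0 = 0) (he : g.1 0 0 = g.1 1 1)
    (hb : g.1 0 1 ≠ 0) : St F g = 0 := by
  simp [St, W_par _ h he hb, MulChar.one_apply (SL_upper_ne_zero h).isUnit]

theorem St_split {g : SL(2, F)} (h : g.1 1 0 = 0) (hne : g.1 0 0 ≠ g.1 1 1) : St F g = 1 := by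
  simp [St, W_split _ h hne, MulChar.one_apply (SL_upper_ne_zero h).isUnit, SL_upper_11 h,
    MulChar.one_apply (inv_ne_zero (SL_upper_ne_zero h)).isUnit]

theorem St_noRoot {g : SL(2, F)} (h : NoRoot g.1) : St F g = -1 := by
  simp [St, W_noRoot _ h]

theorem St_one : St F 1 = Fintype.card F := St_scal isScal_one

theorem St_ne_one : St F ≠ 1 := fun h => by
  have := congrFun h 1
  rw [St_one] at this
  exact q_sub_one_ne_zero (F := F) (by rw [this]; simp)

/-! ### The non-split torus -/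

/-- The centralizer of an element, written as a subgroup. -/
abbrev Ct (c : SL(2, F)) : Subgroup SL(2, F) := Subgroup.centralizer ({c} : Set SL(2, F))

omit [Fintype F] [DecidableEq F] in
theorem mem_Ct_of_isScal (c : SL(2, F)) {g : SL(2, F)} (h : IsScal g.1) : g ∈ Ct c :=
  mem_cent_iff.mpr (SL_ext (h.comm c.1).symm)

omit [DecidableEq F] in
theorem exists_extChar (c : SL(2, F)) (θ : Ct c →* ℂˣ) :
    ∃ α : MulChar F ℂ, ∀ x : Ct c, IsScal x.1.1 → α (x.1.1 0 0) = θ x := by
  by_cases h : θ ⟨-1, neg_one_mem_cent c⟩ = 1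
  · refine ⟨1, fun x hx => ?_⟩
    rw [MulChar.one_apply (SL_upper_ne_zero hx.2.1).isUnit]
    rcases SL_isScal_iff.mp hx with h1 | h1
    · rw [show x = 1 from Subtype.ext h1]; simp
    · rw [show x = ⟨-1, neg_one_mem_cent c⟩ from Subtype.ext h1, h]; simp
  · have h2 : (2 : F) ≠ 0 := fun h2 => h (by
      rw [show (⟨-1, neg_one_mem_cent c⟩ : Ct c) = 1 from Subtype.ext (SL_neg_eq_self h2 1),
        map_one])
    obtain ⟨α, hα⟩ := exists_mulChar_neg_one h2
    refine ⟨α, fun x hx => ?_⟩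
    rcases SL_isScal_iff.mp hx with h1 | h1
    · rw [show x = 1 from Subtype.ext h1]; simp
    · rw [show x = ⟨-1, neg_one_mem_cent c⟩ from Subtype.ext h1]
      have h3 : (θ ⟨-1, neg_one_mem_cent c⟩ : ℂ) ^ 2 = 1 := by
        rw [← Units.val_pow_eq_pow_val, ← map_pow,
          show (⟨-1, neg_one_mem_cent c⟩ : Ct c) ^ 2 = 1 from Subtype.ext (by simp)]
        simp
      rw [(sq_eq_one_iff.mp h3).resolve_left fun h' => h (Units.ext h')]
      simpa using hα

/-- A multiplicative character agreeing with `θ` on the scalars. -/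
noncomputable def extChar {c : SL(2, F)} (θ : Ct c →* ℂˣ) : MulChar F ℂ :=
  (exists_extChar c θ).choose

omit [DecidableEq F] in
theorem extChar_spec {c : SL(2, F)} (θ : Ct c →* ℂˣ) (x : Ct c) (hx : IsScal x.1.1) :
    extChar θ (x.1.1 0 0) = θ x :=
  (exists_extChar c θ).choose_spec x hx

/-- The virtual character attached to a character of the non-split torus. -/
noncomputable def R {c : SL(2, F)} (θ : Ct c →* ℂˣ) : SL(2, F) → ℂ :=
  W (extChar θ) * (St F - 1) - indFun (Ct c) (fun x => (θ x : ℂ))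

theorem isGen_R {c : SL(2, F)} (θ : Ct c →* ℂˣ) : IsGeneralizedCharacter _ (R θ) :=
  isGen_sub (isGen_mul (isGen_of_isChar (isChar_W _)) (isGen_sub (isGen_of_irr isIrr_St) isGen_one))
    (isGen_indFun _ (isGen_of_irr (isIrr_unitsHom θ)))

theorem isClass_R {c : SL(2, F)} (θ : Ct c →* ℂˣ) : IsClassFunction _ (R θ) :=
  isClass_of_isGen (isGen_R θ)

section Torus

variable {c : SL(2, F)} (hc : NoRoot c.1)
include hc

omit [DecidableEq F] in
theorem card_Ct : Nat.card (Ct c) = Fintype.card F + 1 := by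
  rw [card_cent_SL_noRoot ((SL_noRoot_iff c).mp hc), Nat.card_eq_fintype_card]

omit [DecidableEq F] in
theorem isCyclic_Ct : IsCyclic (Ct c) :=
  isCyclic_cent_SL (SL_trace_sq_ne_of_noRoot ((SL_noRoot_iff c).mp hc))

omit [DecidableEq F] in
theorem cast_index_Ct : ((Ct c).index : ℂ) = Fintype.card F * ((Fintype.card F : ℂ) - 1) := by
  have h := congrArg (Nat.cast : ℕ → ℂ) (Ct c).card_mul_index
  rw [Nat.cast_mul, card_Ct hc, cast_card_SL2] at h
  push_cast at h
  exact mul_left_cancel₀ (q_add_one_ne_zero (F := F)) (by rw [h]; ring)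

omit [Fintype F] [DecidableEq F] in
theorem noRoot_of_mem_Ct {x : SL(2, F)} (hx : x ∈ Ct c) (h : ¬ IsScal x.1) : NoRoot x.1 :=
  (SL_noRoot_iff x).mpr (SL_noRoot_of_mem ((SL_noRoot_iff c).mp hc) h hx)

theorem indCt_upper (φ : Ct c → ℂ) {g : SL(2, F)} (h : g.1 1 0 = 0) (hs : ¬ IsScal g.1) :
    indFun (Ct c) φ g = 0 := by
  refine indFun_eq_zero _ _ fun x hx => not_noRoot_of_upper h ?_
  have hconj : IsConj g (x⁻¹ * g * x) := isConj_iff.mpr ⟨x⁻¹, by simp⟩
  have := noRoot_of_mem_Ct hc hx (by rwa [← SL_isScal_iff_of_isConj hconj])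
  rwa [SL_noRoot_iff, ← SL_trace_of_isConj hconj, ← SL_noRoot_iff] at this

theorem indCt_ell (φ : Ct c → ℂ) (x : Ct c) (hs : ¬ IsScal x.1.1) :
    indFun (Ct c) φ x = φ x + φ x⁻¹ := by
  have hx := SL_trace_sq_ne_of_noRoot ((SL_noRoot_iff _).mp (noRoot_of_mem_Ct hc x.2 hs))
  have hcs := not_isScal_of_noRoot hc
  have he : Ct x.1 = Ct c := SL_cent_eq_of_mem hcs hs x.2
  refine indFun_apply_of_two_conj _ _ x x⁻¹
    (fun h => ne_inv_of_not_isScal_of_trace hx (congrArg Subtype.val h))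
    (SL_isConj_of_trace' (SL_trace_inv _).symm hx) (fun y hy => ?_)
    (congrArg (fun K : Subgroup SL(2, F) => Nat.card K) he)
  rcases eq_or_eq_inv_of_trace hx (he.ge y.2) (SL_trace_of_isConj hy).symm with h | h
  exacts [Or.inl (Subtype.ext h), Or.inr (Subtype.ext h)]

theorem R_scal (θ : Ct c →* ℂˣ) {g : SL(2, F)} (h : IsScal g.1) :
    R θ g = ((Fintype.card F : ℂ) - 1) * extChar θ (g.1 0 0) := by
  simp only [R, Pi.sub_apply, Pi.mul_apply, Pi.one_apply, W_scal _ h, St_scal h]
  rw [indFun_apply_central _ _ (SL_mem_center_iff.mpr h) (mem_Ct_of_isScal c h), cast_index_Ct hc,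
    ← extChar_spec θ ⟨g, mem_Ct_of_isScal c h⟩ h]
  ring

theorem R_par (θ : Ct c →* ℂˣ) {g : SL(2, F)} (h : g.1 1 0 = 0) (he : g.1 0 0 = g.1 1 1)
    (hb : g.1 0 1 ≠ 0) : R θ g = -extChar θ (g.1 0 0) := by
  simp [R, W_par _ h he hb, St_par h he hb, indCt_upper hc _ h (fun hs => hb hs.1)]

theorem R_split (θ : Ct c →* ℂˣ) {g : SL(2, F)} (h : g.1 1 0 = 0) (hne : g.1 0 0 ≠ g.1 1 1) :
    R θ g = 0 := by
  simp [R, St_split h hne, indCt_upper hc _ h (fun hs => hne hs.2.2)]

theorem R_ell (θ : Ct c →* ℂˣ) (x : Ct c) (hs : ¬ IsScal x.1.1) :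
    R θ x = -((θ x : ℂ) + (θ x)⁻¹.val) := by
  simp [R, W_noRoot _ (noRoot_of_mem_Ct hc x.2 hs), indCt_ell hc _ x hs]

theorem R_one (θ : Ct c →* ℂˣ) : R θ 1 = (Fintype.card F : ℂ) - 1 := by
  rw [R_scal hc θ isScal_one]; simp

theorem cst_R (θ : Ct c →* ℂˣ) (a : Fˣ) : cst (R θ) a = 0 := by
  by_cases ha : (a : F) ^ 2 = 1
  · rw [cst_of_sq ha (fun g h1 h2 => by rw [R_scal hc θ h1, h2])
      (fun g h1 h2 h3 h4 => by rw [R_par hc θ h1 h2 h3, h4])]
    ring
  · rw [cst_of_ne ha (fun g h1 h2 _ => R_split hc θ h1 h2), mul_zero]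

theorem inner_R_W (θ : Ct c →* ℂˣ) (α : MulChar F ℂ) : classInner (R θ) (W α) = 0 := by
  simp [inner_W (isClass_R θ), cst_R hc]

end Torus

omit [Fintype F] in
theorem sum_units_sq_eq_one [Fintype Fˣ] (φ : F → ℂ) :
    ∑ a : Fˣ, (if (a : F) ^ 2 = 1 then φ a else 0) = φ 1 + if (2 : F) = 0 then 0 else φ (-1) := by
  by_cases h2 : (2 : F) = 0
  · rw [if_pos h2, add_zero, Finset.sum_eq_single 1]
    · simp
    · intro a _ ha
      rw [if_neg]
      intro h
      rcases sq_eq_one_iff.mp h with h | h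
      · exact ha (Units.ext h)
      · exact ha (Units.ext (by rw [h, Units.val_one]; linear_combination -h2))
    · simp
  · have hne : (1 : Fˣ) ≠ -1 := fun h => h2 (by
      have : (1 : F) = -1 := by simpa using congrArg Units.val h
      linear_combination this)
    rw [if_neg h2, ← Finset.sum_subset (Finset.subset_univ {1, -1}), Finset.sum_pair hne]
    · simp
    · intro a _ ha
      rw [if_neg]
      intro h
      apply ha
      rcases sq_eq_one_iff.mp h with h | h
      · simp [show a = 1 from Units.ext h]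
      · simp [show a = -1 from Units.ext h]

omit [Fintype F] in
theorem sum_Ct_isScal (c : SL(2, F)) [Fintype (Ct c)] [DecidablePred fun x : Ct c => IsScal x.1.1]
    (φ : F → ℂ) : ∑ x : Ct c, (if IsScal x.1.1 then φ (x.1.1 0 0) else 0) =
      φ 1 + if (2 : F) = 0 then 0 else φ (-1) := by
  classical
  by_cases h2 : (2 : F) = 0
  · rw [if_pos h2, add_zero, Finset.sum_eq_single 1]
    · simp [isScal_one]
    · intro a _ ha
      rw [if_neg]
      intro h
      rcases SL_isScal_iff.mp h with h | h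
      · exact ha (Subtype.ext h)
      · exact ha (Subtype.ext (h.trans (SL_neg_eq_self h2 1)))
    · simp
  · have hne : (1 : Ct c) ≠ ⟨-1, neg_one_mem_cent c⟩ := fun h =>
      SL_neg_one_ne_one h2 (congrArg Subtype.val h).symm
    rw [if_neg h2, ← Finset.sum_subset (Finset.subset_univ {1, ⟨-1, neg_one_mem_cent c⟩}),
      Finset.sum_pair hne]
    · simp [isScal_one, isScal_neg]
    · intro a _ ha
      rw [if_neg]
      intro h
      apply ha
      rcases SL_isScal_iff.mp h with h | h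
      · simp [show a = 1 from Subtype.ext h]
      · simp [show a = ⟨-1, neg_one_mem_cent c⟩ from Subtype.ext h]

section Torus2

variable {c : SL(2, F)} (hc : NoRoot c.1)
include hc

open scoped Classical in
theorem inner_R_R (θ η : Ct c →* ℂˣ) :
    classInner (R θ) (R η) = (if θ = η then 1 else 0) + (if θ = η⁻¹ then 1 else 0) := by
  have hq := q_ne_zero (F := F)
  have hq1 := q_sub_one_ne_zero (F := F)
  have hq2 := q_add_one_ne_zero (F := F)
  set S : ℂ := extChar θ 1 * conj (extChar η 1) +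
    if (2 : F) = 0 then 0 else extChar θ (-1) * conj (extChar η (-1)) with hS
  have h1 : classInner (R θ) (W (extChar η) * (St F - 1)) = S := by
    have e : classInner (R θ) (W (extChar η) * (St F - 1)) =
        classInner (R θ * fun g => conj ((St F - 1) g)) (W (extChar η)) := by
      rw [inner_mul_left]
      simp only [Complex.conj_conj]
      congr 1; ext g; simp [mul_comm]
    rw [e, inner_W (isClass_mul (isClass_R θ) (isClass_conj
      (isClass_sub (isClass_of_irr isIrr_St) isClass_one))), hS,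
      ← sum_units_sq_eq_one (fun a => extChar θ a * conj (extChar η a)), Finset.mul_sum]
    refine Finset.sum_congr rfl fun a _ => ?_
    split_ifs with ha
    · rw [cst_of_sq ha (s := ((Fintype.card F : ℂ) - 1) * extChar θ a * (Fintype.card F - 1))
        (p := extChar θ a)]
      · field_simp; ring
      · intro g h1 h2
        simp [R_scal hc θ h1, St_scal h1, h2]
      · intro g h1 h2 h3 h4
        simp [R_par hc θ h1 h2 h3, St_par h1 h2 h3, h4]
    · rw [cst_of_ne ha (h := 0)]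
      · simp
      · intro g h1 h2 _
        simp [R_split hc θ h1 h2]
  have h2 : classInner (R θ) (indFun (Ct c) (fun x => (η x : ℂ))) =
      S - ((if θ = η then 1 else 0) + (if θ = η⁻¹ then 1 else 0)) := by
    rw [inner_indFun_right _ _ (isClass_R θ), classInner, card_Ct hc]
    have e : ∀ x : Ct c, R θ x * conj (η x : ℂ) =
        ((Fintype.card F : ℂ) + 1) * (if IsScal x.1.1 then
          extChar θ (x.1.1 0 0) * conj (extChar η (x.1.1 0 0)) else 0) -
          ((θ x : ℂ) * conj (η x : ℂ) + (θ⁻¹ x : ℂ) * conj (η x : ℂ)) := by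
      intro x
      split_ifs with hx
      · have hinv : x⁻¹ = x := by
          apply Subtype.ext
          rcases SL_isScal_iff.mp hx with h | h <;> simp [h]
        have : (θ⁻¹ x : ℂ) = θ x := by
          rw [MonoidHom.inv_apply, ← map_inv, hinv]
        rw [R_scal hc θ hx, extChar_spec θ x hx, extChar_spec η x hx, this]
        ring
      · rw [R_ell hc θ x hx, MonoidHom.inv_apply]; ring
    simp only [e, Finset.sum_sub_distrib, Finset.sum_add_distrib, ← Finset.mul_sum,
      sum_unitsHom_mul_conj, card_Ct hc, hom_inv_eq_iff]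
    rw [sum_Ct_isScal c (fun a => extChar θ a * conj (extChar η a)), ← hS]
    push_cast
    split_ifs <;> field_simp <;> ring
  conv_lhs => enter [2]; rw [R]
  rw [Char.inner_sub_right, h1, h2]; ring

theorem isIrr_R {θ : Ct c →* ℂˣ} (h : θ ^ 2 ≠ 1) : IsIrrCharacter _ (R θ) := by
  refine isIrr_of_isGen (isGen_R θ) ?_ ?_
  · rw [inner_R_R hc, if_pos rfl, if_neg (by rwa [hom_eq_inv_self_iff]), add_zero]
  · rw [R_one hc]
    simp only [Complex.sub_re, Complex.natCast_re, Complex.one_re, sub_nonneg, Nat.one_le_cast]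
    exact Fintype.card_pos

theorem inner_R_self_of_sq {θ : Ct c →* ℂˣ} (h : θ ^ 2 = 1) : classInner (R θ) (R θ) = 2 := by
  rw [inner_R_R hc, if_pos rfl, if_pos (by rwa [hom_eq_inv_self_iff])]; norm_num

theorem R_inv (θ : Ct c →* ℂˣ) : R θ⁻¹ = R θ := by
  classical
  rw [← sub_eq_zero]
  apply eq_zero_of_inner_self
  simp only [Char.inner_sub_left, Char.inner_sub_right, inner_R_R hc, hom_inv_inv, hom_inv_eq_iff,
    if_true]
  ring

theorem R_eq_iff {θ η : Ct c →* ℂˣ} : R θ = R η ↔ θ = η ∨ θ = η⁻¹ := by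
  constructor
  · intro h
    by_contra hcon
    push Not at hcon
    have h1 := inner_R_R hc θ η
    rw [if_neg hcon.1, if_neg hcon.2, ← h, inner_R_R hc, if_pos rfl] at h1
    split_ifs at h1 <;> norm_num at h1
  · rintro (rfl | rfl)
    exacts [rfl, R_inv hc η]

omit hc in
open scoped Classical in
theorem inner_R_one (θ : Ct c →* ℂˣ) :
    classInner (R θ) (1 : SL(2, F) → ℂ) = if θ = 1 then -1 else 0 := by
  have h1 : classInner (W (extChar θ) * (St F - 1)) (1 : SL(2, F) → ℂ) = 0 := by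
    rw [inner_mul_left]
    have : (fun x => conj ((St F - 1) x) * (1 : SL(2, F) → ℂ) x) = fun x => conj ((W 1 - 1 - 1) x) := by
      ext x; simp [St]
    rw [this]
    have hW : (fun x => conj ((W (1 : MulChar F ℂ) - 1 - 1) x)) = W 1 - 1 - 1 := by
      ext x
      have := congrFun (indFun_conj (BS F)
        (fun b => (1 : MulChar F ℂ) (((b : SL(2, F)) : Matrix (Fin 2) (Fin 2) F) 0 0))) x
      simp only [conj_mulChar', inv_one] at this
      simp only [Pi.sub_apply, map_sub, Pi.one_apply, map_one, W, this]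
    rw [hW, Char.inner_sub_right, Char.inner_sub_right, inner_W_W, inner_W_one, inv_one]
    ring
  rw [R, Char.inner_sub_left, h1, inner_indFun_left _ _ isClass_one]
  have := inner_unitsHom θ 1
  simp only [MonoidHom.one_apply, Units.val_one] at this
  simp only [Pi.one_apply]
  rw [this]
  split_ifs <;> simp

open scoped Classical in
theorem inner_R_St (θ : Ct c →* ℂˣ) : classInner (R θ) (St F) = if θ = 1 then 1 else 0 := by
  rw [St, Char.inner_sub_right, inner_R_W hc, inner_R_one]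
  split_ifs <;> simp

/-- The regular character in terms of the principal series and the cuspidal functions. -/
theorem regChar_eq [Fintype (MulChar F ℂ)] [Fintype (Ct c →* ℂˣ)] :
    (2 : ℂ) • regChar SL(2, F) = ((Fintype.card F : ℂ) + 1) • ∑ α : MulChar F ℂ, W α +
      ((Fintype.card F : ℂ) - 1) • ∑ θ : Ct c →* ℂˣ, R θ := by
  have := isCyclic_Ct hc
  have hsum : ∀ g : SL(2, F), g.1 0 0 ^ 2 = 1 → g.1 0 0 ≠ 0 → ∑ θ : Ct c →* ℂˣ, extChar θ (g.1 0 0) =
      if g.1 0 0 = 1 then (Fintype.card F : ℂ) + 1 else 0 := by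
    intro g h2 h0
    have hinv : (g.1 0 0)⁻¹ = g.1 0 0 := (eq_inv_of_mul_eq_one_right (by rw [← sq, h2])).symm
    have hs : IsScal (dg (Units.mk0 _ h0)).1 := by simp [IsScal, hinv]
    have e : ∀ θ : Ct c →* ℂˣ, extChar θ (g.1 0 0) = θ ⟨_, mem_Ct_of_isScal c hs⟩ := fun θ => by
      rw [← extChar_spec θ _ hs]; simp
    simp only [e, sum_unitsHom_apply]
    split_ifs with h1
    · have : (⟨_, mem_Ct_of_isScal c hs⟩ : Ct c) = 1 :=
        Subtype.ext ((congrArg dg (show Units.mk0 _ h0 = 1 from Units.ext h1)).trans dg_one)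
      rw [this, regChar_one, card_Ct hc]; simp
    · refine regChar_of_ne fun h => h1 ?_
      have := congrArg (fun x : Ct c => x.1.1 0 0) h
      simpa using this
  refine SL_class_ext (isClass_smul _ (isClass_of_isChar isChar_regChar))
    (isClass_add (isClass_smul _ (isClass_sum _ fun α _ => isClass_W α))
      (isClass_smul _ (isClass_sum _ fun θ _ => isClass_R θ))) (fun g h => ?_) (fun g h => ?_)
  · simp only [Pi.smul_apply, Pi.add_apply, Finset.sum_apply, smul_eq_mul]
    by_cases he : g.1 0 0 = g.1 1 1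
    · have h2 := (SL_upper_eq_iff h).mp he
      have h0 := SL_upper_ne_zero h
      by_cases hb : g.1 0 1 = 0
      · have hs : IsScal g.1 := ⟨hb, h, he⟩
        simp only [W_scal _ hs, R_scal hc _ hs, ← Finset.mul_sum, sum_mulChar_apply, hsum g h2 h0,
          Nat.card_eq_fintype_card]
        split_ifs with h1
        · have : g = 1 := SL_ext (by rw [hs.eq_smul, h1]; simp)
          rw [this, regChar_one, cast_card_SL2]; ring
        · rw [regChar_of_ne (by rintro rfl; simp at h1)]; ring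
      · simp only [W_par _ h he hb, R_par hc _ h he hb, Finset.sum_neg_distrib, sum_mulChar_apply,
          hsum g h2 h0, Nat.card_eq_fintype_card]
        rw [regChar_of_ne (by rintro rfl; simp at hb)]
        split_ifs <;> ring
    · simp only [W_split _ h he, R_split hc _ h he, Finset.sum_add_distrib, sum_mulChar_apply]
      have h1 : g.1 0 0 ≠ 1 := fun h1 => he ((SL_upper_eq_iff h).mpr (by rw [h1]; simp))
      have h2 : g.1 1 1 ≠ 1 := by rw [SL_upper_11 h]; simpa using h1
      rw [regChar_of_ne (by rintro rfl; simp at he), if_neg h1, if_neg h2]; simp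
  · have hg : g ≠ 1 := by rintro rfl; exact not_isScal_of_noRoot h isScal_one
    simp only [Pi.smul_apply, Pi.add_apply, Finset.sum_apply, smul_eq_mul, R, Pi.sub_apply,
      Pi.mul_apply, W_noRoot _ h, zero_mul, zero_sub, Finset.sum_neg_distrib]
    have e : ∑ θ : Ct c →* ℂˣ, indFun (Ct c) (fun x => (θ x : ℂ)) g = regChar _ g := by
      rw [← indFun_regChar (Ct c), ← Finset.sum_apply, ← indFun_sum]
      congr 2
      ext x
      rw [Finset.sum_apply, sum_unitsHom_apply]
    rw [e, regChar_of_ne hg]; simp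

theorem two_mul_degree [Fintype (MulChar F ℂ)] [Fintype (Ct c →* ℂˣ)] {χ : SL(2, F) → ℂ}
    (hχ : IsCharacter _ χ) :
    2 * χ 1 = ((Fintype.card F : ℂ) + 1) * ∑ α : MulChar F ℂ, classInner (W α) χ +
      ((Fintype.card F : ℂ) - 1) * ∑ θ : Ct c →* ℂˣ, classInner (R θ) χ := by
  have h := congrArg (fun f => classInner f χ) (regChar_eq hc)
  simpa only [Char.inner_smul_left, Char.inner_add_left, inner_sum_left, inner_regChar_char hχ] using h

theorem exists_W_or_R {χ : SL(2, F) → ℂ} (hχ : IsIrrCharacter _ χ) :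
    (∃ α : MulChar F ℂ, classInner (W α) χ ≠ 0) ∨ ∃ θ : Ct c →* ℂˣ, classInner (R θ) χ ≠ 0 := by
  have := Fintype.ofFinite (MulChar F ℂ)
  have := Fintype.ofFinite (Ct c →* ℂˣ)
  by_contra hcon
  push Not at hcon
  have h := two_mul_degree hc (isChar_of_irr hχ)
  simp [hcon.1, hcon.2, irr_one_ne_zero hχ] at h

end Torus2

end Cfsg.Agent.Ch2
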