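import Cfsg.Agent.Lib.Char.SL2A

/-!
# Characters of `SL₂`: the characters of half degree and the list of irreducible characters
-/

set_option autoImplicit false

open Cfsg Cfsg.Agent.Char Cfsg.Agent.SL2 Matrix
open scoped ComplexConjugate MatrixGroups

namespace Cfsg.Agent.Ch2

/-- A character of a commutative group that is constant off the identity. -/
theorem exists_degree_sub_eq {A : Type*} [Group A] [Finite A] [IsMulCommutative A] [Nontrivial A]
    {φ : A → ℂ} (hφ : IsCharacter A φ) {v : ℂ} (hv : ∀ a, a ≠ 1 → φ a = v) :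
    ∃ m : ℕ, φ 1 - v = Nat.card A * m := by
  classical
  have := Fintype.ofFinite A
  obtain ⟨a, ha⟩ := exists_ne (1 : A)
  obtain ⟨θ, hθ⟩ := exists_unitsHom_ne_one ha
  have hθ1 : (1 : A →* ℂˣ) ≠ θ := by rintro rfl; exact hθ rfl
  obtain ⟨m, hm⟩ := exists_nat_inner hφ (isChar_of_irr (isIrr_unitsHom θ))
  refine ⟨m, ?_⟩
  have e : φ = ((φ 1 - v) / Nat.card A) • regChar A + v • fun a => ((1 : A →* ℂˣ) a : ℂ) := by
    ext x
    by_cases hx : x = 1
    · subst hx; simp [regChar_one]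
    · simp [regChar_of_ne hx, hv x hx]
  rw [e, Char.inner_add_left, Char.inner_smul_left, Char.inner_smul_left, inner_unitsHom,
    if_neg hθ1, inner_regChar_left] at hm
  simp only [map_one, Units.val_one, mul_one, mul_zero, add_zero] at hm
  rw [← hm]
  have := natCard_ne_zero (G := A)
  field_simp

variable {F : Type*} [Field F]

/-- Conjugation of `SL₂` by an element of `GL₂`. -/
def gconj (x : GL (Fin 2) F) : SL(2, F) ≃* SL(2, F) where
  toFun g := ⟨x.1 * g.1 * (x⁻¹).1, by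
    rw [det_mul, det_mul, g.2, mul_one, ← det_mul, ← Units.val_mul]; simp⟩
  invFun g := ⟨(x⁻¹).1 * g.1 * x.1, by
    rw [det_mul, det_mul, g.2, mul_one, ← det_mul, ← Units.val_mul]; simp⟩
  left_inv g := SL_ext (by
    change (x⁻¹).1 * (x.1 * g.1 * (x⁻¹).1) * x.1 = g.1
    rw [← Matrix.mul_assoc, ← Matrix.mul_assoc, Units.inv_mul, Matrix.mul_assoc, Units.inv_mul]
    simp)
  right_inv g := SL_ext (by
    change x.1 * ((x⁻¹).1 * g.1 * x.1) * (x⁻¹).1 = g.1
    rw [← Matrix.mul_assoc, ← Matrix.mul_assoc, Units.mul_inv, Matrix.mul_assoc, Units.mul_inv]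
    simp)
  map_mul' g h := SL_ext (by
    change x.1 * (g.1 * h.1) * (x⁻¹).1 = (x.1 * g.1 * (x⁻¹).1) * (x.1 * h.1 * (x⁻¹).1)
    simp only [Matrix.mul_assoc]
    rw [← Matrix.mul_assoc (x⁻¹).1 x.1, Units.inv_mul, Matrix.one_mul])

theorem toGL_gconj (x : GL (Fin 2) F) (g : SL(2, F)) :
    SpecialLinearGroup.toGL (gconj x g) = x * SpecialLinearGroup.toGL g * x⁻¹ :=
  Units.ext rfl

/-- The diagonal matrix with entries `ε, 1`. -/
def dG (ε : Fˣ) : GL (Fin 2) F :=
  ⟨!![(ε : F), 0; 0, 1], !![(ε : F)⁻¹, 0; 0, 1], by apply mat_ext <;> simp [mul_apply2],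
    by apply mat_ext <;> simp [mul_apply2]⟩

theorem coe_gconj_dG (ε : Fˣ) (g : SL(2, F)) : (gconj (dG ε) g).1 =
    !![g.1 0 0, ε * g.1 0 1; (ε : F)⁻¹ * g.1 1 0, g.1 1 1] := by
  change !![(ε : F), 0; 0, 1] * g.1 * !![(ε : F)⁻¹, 0; 0, 1] = _
  apply mat_ext <;> simp only [mul_apply2] <;> simp [mul_comm]

theorem gconj_dG_up (ε : Fˣ) (t : F) : gconj (dG ε) (up t) = up (ε * t) :=
  SL_ext (by rw [coe_gconj_dG]; simp)

theorem trace_gconj_dG (ε : Fˣ) (g : SL(2, F)) : (gconj (dG ε) g).1.trace = g.1.trace := by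
  rw [coe_gconj_dG]; simp [trace_fin_two]

theorem SL_trace_sq_ne_of_split {g : SL(2, F)} (h : g.1 1 0 = 0) (hne : g.1 0 0 ≠ g.1 1 1) :
    g.1.trace ^ 2 ≠ 4 := by
  have := disc_ne_of_split hne
  rwa [SL_upper_det h, mul_one, ← trace_fin_two] at this

theorem eq_top_of_up_mem (N : Subgroup SL(2, F)) [hN : N.Normal] (h : ∀ t, up t ∈ N) : N = ⊤ := by
  have hlo : ∀ t, lo t ∈ N := fun t => by
    have e : lo t = wt * up (-t) * wt⁻¹ := by
      rw [eq_mul_inv_iff_mul_eq]
      apply SL_ext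
      rw [SL_coe_mul, SL_coe_mul]
      apply mat_ext <;> simp [mul_apply2]
    rw [e]; exact hN.conj_mem _ (h _) _
  have key : ∀ g : SL(2, F), g.1 1 0 ≠ 0 → g ∈ N := fun g hg => by
    have e : g = up ((g.1 0 0 - 1) / g.1 1 0) * lo (g.1 1 0) * up ((g.1 1 1 - 1) / g.1 1 0) := by
      apply SL_ext
      rw [SL_coe_mul, SL_coe_mul]
      have := SL_det g
      apply mat_ext <;> simp [mul_apply2] <;> field_simp
      · ring
      · linear_combination -this
      · ring
    rw [e]; exact N.mul_mem (N.mul_mem (h _) (hlo _)) (h _)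
  rw [eq_top_iff]
  intro g _
  by_cases hg : g.1 1 0 = 0
  · have h1 : (lo 1 * g).1 1 0 ≠ 0 := by
      rw [SL_coe_mul]; simpa [mul_apply2, hg] using SL_upper_ne_zero hg
    have := N.mul_mem (N.inv_mem (hlo 1)) (key _ h1)
    simpa using this
  · exact key g hg

theorem irr_eq_one_of_up [Finite F] {χ : SL(2, F) → ℂ} (hχ : IsIrrCharacter _ χ)
    (h : ∀ t, χ (up t) = χ 1) : χ = 1 := by
  have := charKer_normal (isChar_of_irr hχ)
  have e := eq_top_of_up_mem (charKer (isChar_of_irr hχ)) h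
  exact irr_eq_one_of_const hχ fun g => (mem_charKer _).mp (e ▸ Subgroup.mem_top g)

theorem isSquare_mul_of_not_isSquare [Finite F] {a b : F} (ha : ¬ IsSquare a) (hb : ¬ IsSquare b) :
    IsSquare (a * b) := by
  classical
  have := Fintype.ofFinite F
  have ha0 : a ≠ 0 := by rintro rfl; exact ha IsSquare.zero
  have hb0 : b ≠ 0 := by rintro rfl; exact hb IsSquare.zero
  rw [← quadraticChar_one_iff_isSquare (mul_ne_zero ha0 hb0), map_mul,
    quadraticChar_neg_one_iff_not_isSquare.mpr ha, quadraticChar_neg_one_iff_not_isSquare.mpr hb]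
  simp

theorem class_up_sq {f : SL(2, F) → ℂ} (hf : IsClassFunction _ f) {s : F} (hs : s ≠ 0) (t : F) :
    f (up (s ^ 2 * t)) = f (up t) := by
  rw [← hf (up t) (dg (Units.mk0 s hs)), dg_mul_up]; rfl

theorem class_up_of_isSquare {f : SL(2, F) → ℂ} (hf : IsClassFunction _ f) {t : F} (ht : t ≠ 0)
    (h : IsSquare t) : f (up t) = f (up 1) := by
  obtain ⟨s, rfl⟩ := h
  rw [← class_up_sq hf (left_ne_zero_of_mul ht) 1, sq, mul_one]

theorem class_up_of_not_isSquare [Finite F] {f : SL(2, F) → ℂ} (hf : IsClassFunction _ f) {t ε : F}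
    (h : ¬ IsSquare t) (hε : ¬ IsSquare ε) : f (up t) = f (up ε) := by
  have hε0 : ε ≠ 0 := by rintro rfl; exact hε IsSquare.zero
  have ht0 : t ≠ 0 := by rintro rfl; exact h IsSquare.zero
  obtain ⟨s, hs⟩ := isSquare_mul_of_not_isSquare h hε
  have hs0 : s ≠ 0 := by rintro rfl; simp [hε0, ht0] at hs
  rw [← class_up_sq hf (div_ne_zero hs0 hε0) ε]
  congr 2
  field_simp
  linear_combination hs

theorem class_gconj_of_par [Finite F] {f : SL(2, F) → ℂ} (hf : IsClassFunction _ f) (p : F → ℂ)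
    (hp : ∀ g : SL(2, F), g.1 1 0 = 0 → g.1 0 0 = g.1 1 1 → g.1 0 1 ≠ 0 → f g = p (g.1 0 0))
    (ε : Fˣ) (g : SL(2, F)) : f (gconj (dG ε) g) = f g := by
  have key : ∀ g : SL(2, F), g.1.trace ^ 2 ≠ 4 → f (gconj (dG ε) g) = f g := fun g hg =>
    (class_eq_of_isConj hf (SL_isConj_of_trace' (trace_gconj_dG ε g).symm hg)).symm
  refine congrFun (SL_class_ext (isClass_comp (gconj (dG ε)).toMonoidHom hf) hf (fun g h => ?_)
    (fun g h => key g (SL_trace_sq_ne_of_noRoot ((SL_noRoot_iff g).mp h)))) g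
  by_cases he : g.1 0 0 = g.1 1 1
  · by_cases hb : g.1 0 1 = 0
    · congr 1
      apply SL_ext
      change (gconj (dG ε) g).1 = g.1
      rw [coe_gconj_dG]
      apply mat_ext <;> simp [h, hb]
    · change f (gconj (dG ε) g) = f g
      rw [hp g h he hb, hp (gconj (dG ε) g)] <;> rw [coe_gconj_dG] <;> simp [h, he, hb]
  · exact key g (SL_trace_sq_ne_of_split h he)

/-- `f` is the sum of two distinct irreducible characters interchanged by the diagonal
automorphisms. -/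
structure Halves (f χ₁ χ₂ : SL(2, F) → ℂ) : Prop where
  irr₁ : IsIrrCharacter _ χ₁
  irr₂ : IsIrrCharacter _ χ₂
  ne : χ₁ ≠ χ₂
  add : f = χ₁ + χ₂
  swap₁ : ∀ ε : Fˣ, ¬ IsSquare (ε : F) → ∀ g, χ₁ (gconj (dG ε) g) = χ₂ g
  swap₂ : ∀ ε : Fˣ, ¬ IsSquare (ε : F) → ∀ g, χ₂ (gconj (dG ε) g) = χ₁ g

theorem Halves.symm {f χ₁ χ₂ : SL(2, F) → ℂ} (h : Halves f χ₁ χ₂) : Halves f χ₂ χ₁ :=
  ⟨h.irr₂, h.irr₁, h.ne.symm, h.add.trans (add_comm _ _), h.swap₂, h.swap₁⟩

variable [Fintype F] [DecidableEq F]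

theorem halves_of {f χ₁ χ₂ : SL(2, F) → ℂ} (h₁ : IsIrrCharacter _ χ₁) (h₂ : IsIrrCharacter _ χ₂)
    (hne : χ₁ ≠ χ₂) (hadd : f = χ₁ + χ₂) (hinv : ∀ ε g, f (gconj (dG ε) g) = f g) {v : ℂ}
    (hv : ∀ t, t ≠ 0 → f (up t) = v) (hq : f 1 - v = Fintype.card F)
    (h1 : classInner f 1 = 0) : Halves f χ₁ χ₂ := by
  have key : ∀ ε : Fˣ, ¬ IsSquare (ε : F) → ∀ g, χ₁ (gconj (dG ε) g) = χ₂ g := by
    intro ε hε
    have hψ := isIrr_comp (gconj (dG ε)).toMonoidHom (gconj (dG ε)).surjective h₁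
    have hin : classInner f (fun g => χ₁ (gconj (dG ε) g)) = 1 := by
      rw [← funext (hinv ε), inner_comp_equiv (gconj (dG ε)) f χ₁, hadd, Char.inner_add_left,
        inner_irr_self h₁, inner_irr_ne h₂ h₁ hne.symm, add_zero]
    rcases eq_or_eq_of_inner_add_ne_zero h₁ h₂ hψ (by
      rw [← hadd]; exact hin ▸ one_ne_zero) with h | h
    swap
    · exact congrFun h
    exfalso
    have hi₁ : ∀ g, χ₁ (gconj (dG ε) g) = χ₁ g := congrFun h
    have hi₂ : ∀ g, χ₂ (gconj (dG ε) g) = χ₂ g := fun g => by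
      have := hinv ε g
      rw [hadd, Pi.add_apply, Pi.add_apply, hi₁] at this
      exact add_left_cancel this
    have hc : ∀ χ : SL(2, F) → ℂ, IsIrrCharacter _ χ → (∀ g, χ (gconj (dG ε) g) = χ g) →
        (∀ t, t ≠ 0 → χ (up t) = χ (up 1)) ∧ ∃ m : ℕ, χ 1 - χ (up 1) = Fintype.card F * m := by
      intro χ hχ hi
      have hconst : ∀ t, t ≠ 0 → χ (up t) = χ (up 1) := fun t ht => by
        by_cases hs : IsSquare t
        · exact class_up_of_isSquare (isClass_of_irr hχ) ht hs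
        · rw [class_up_of_not_isSquare (isClass_of_irr hχ) hs hε, ← hi (up 1), gconj_dG_up, mul_one]
      refine ⟨hconst, ?_⟩
      have := exists_degree_sub_eq (isChar_comp (upHom (F := F)) (isChar_of_irr hχ))
        (v := χ (up 1)) (fun a ha => hconst _ (by simpa using ha))
      simpa [up_zero] using this
    obtain ⟨c₁, m₁, hm₁⟩ := hc χ₁ h₁ hi₁
    obtain ⟨c₂, m₂, hm₂⟩ := hc χ₂ h₂ hi₂
    have hsum : (Fintype.card F : ℂ) * (m₁ + m₂) = Fintype.card F * 1 := by
      rw [← hv 1 one_ne_zero, hadd] at hq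
      simp only [Pi.add_apply] at hq
      linear_combination hq - hm₁ - hm₂
    have hsum' : m₁ + m₂ = 1 := by exact_mod_cast mul_left_cancel₀ q_ne_zero hsum
    have htriv : ∀ χ : SL(2, F) → ℂ, IsIrrCharacter _ χ → (∀ t, t ≠ 0 → χ (up t) = χ (up 1)) →
        χ 1 - χ (up 1) = Fintype.card F * (0 : ℕ) → χ = 1 := by
      intro χ hχ hc h0
      refine irr_eq_one_of_up hχ fun t => ?_
      by_cases ht : t = 0
      · rw [ht, up_zero]
      · rw [hc t ht]; simp only [Nat.cast_zero, mul_zero] at h0; exact (sub_eq_zero.mp h0).symm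
    rw [hadd, Char.inner_add_left] at h1
    rcases Nat.eq_zero_or_pos m₁ with h0 | h0
    · have e := htriv χ₁ h₁ c₁ (h0 ▸ hm₁)
      rw [e, inner_one_one, inner_irr_ne h₂ isIrr_one (e ▸ hne.symm)] at h1
      simp at h1
    · have e := htriv χ₂ h₂ c₂ ((show m₂ = 0 by omega) ▸ hm₂)
      rw [e, inner_one_one, inner_irr_ne h₁ isIrr_one (e ▸ hne)] at h1
      simp at h1
  refine ⟨h₁, h₂, hne, hadd, key, fun ε hε g => ?_⟩
  have := hinv ε g
  rw [hadd, Pi.add_apply, Pi.add_apply, key ε hε, add_comm] at this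
  exact add_right_cancel this

omit [DecidableEq F] in
theorem exists_units_nonsquare (h2 : (2 : F) ≠ 0) : ∃ ε : Fˣ, ¬ IsSquare (ε : F) := by
  have h : ringChar F ≠ 2 := fun h => h2 (by
    have := ringChar.spec F 2
    rw [h] at this
    exact_mod_cast this.mpr dvd_rfl)
  obtain ⟨a, ha⟩ := FiniteField.exists_nonsquare h
  exact ⟨Units.mk0 a (by rintro rfl; exact ha IsSquare.zero), ha⟩

omit [DecidableEq F] in
theorem two_ne_zero_of_mulChar {α : MulChar F ℂ} (h : α ^ 2 = 1) (h1 : α ≠ 1) : (2 : F) ≠ 0 :=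
  fun h2 => h1 (mulChar_eq_one_of_sq_of_even (even_card_iff.mpr h2) h)

omit [DecidableEq F] in
theorem two_ne_zero_of_torus {c : SL(2, F)} (hc : NoRoot c.1) {θ : Ct c →* ℂˣ} (h : θ ^ 2 = 1)
    (h1 : θ ≠ 1) : (2 : F) ≠ 0 :=
  fun h2 => h1 (unitsHom_eq_one_of_sq_of_odd (by
    rw [card_Ct hc, ← Nat.card_eq_fintype_card]; exact (even_card_iff.mpr h2).add_one) h)

section HalvesVal

variable {f χ₁ χ₂ : SL(2, F) → ℂ} (H : Halves f χ₁ χ₂) (h2 : (2 : F) ≠ 0)
include H h2

omit [DecidableEq F] in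
theorem Halves.apply_of_isConj {g : SL(2, F)} (hg : ∀ ε, IsConj g (gconj (dG ε) g)) :
    χ₁ g = f g / 2 := by
  obtain ⟨ε, hε⟩ := exists_units_nonsquare h2
  have := H.swap₁ ε hε g
  rw [← class_eq_of_isConj (isClass_of_irr H.irr₁) (hg ε)] at this
  rw [H.add, Pi.add_apply, ← this]; ring

omit [DecidableEq F] in
theorem Halves.degree : χ₁ 1 = f 1 / 2 :=
  H.apply_of_isConj h2 fun ε => by rw [map_one]

omit [DecidableEq F] in
theorem Halves.apply_ss {g : SL(2, F)} (hg : g.1.trace ^ 2 ≠ 4) : χ₁ g = f g / 2 :=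
  H.apply_of_isConj h2 fun ε => SL_isConj_of_trace' (trace_gconj_dG ε g).symm hg

omit [DecidableEq F] in
theorem Halves.sum_up_eq : ∑ t, χ₁ (up t) = ∑ t, χ₂ (up t) := by
  obtain ⟨ε, hε⟩ := exists_units_nonsquare h2
  rw [← Equiv.sum_comp (Units.mulLeft ε)]
  refine Finset.sum_congr rfl fun t _ => ?_
  rw [← H.swap₁ ε hε, gconj_dG_up]; rfl

omit [DecidableEq F] in
theorem Halves.sum_up : ∑ t, χ₁ (up t) = (∑ t, f (up t)) / 2 := by
  simp only [H.add, Pi.add_apply, Finset.sum_add_distrib, ← H.sum_up_eq h2]; ring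

theorem Halves.sub_sq {v : ℂ} (hv : ∀ t, t ≠ 0 → f (up t) = v) (hq : f 1 - v = Fintype.card F) :
    (χ₁ (up 1) - χ₂ (up 1)) ^ 2 = (-1) ^ ((Fintype.card F - 1) / 2) * Fintype.card F := by
  classical
  obtain ⟨ε, hε⟩ := exists_units_nonsquare h2
  have := Fintype.ofFinite (Multiplicative F →* ℂˣ)
  have c₁ := isChar_comp (upHom (F := F)) (isChar_of_irr H.irr₁)
  have c₂ := isChar_comp (upHom (F := F)) (isChar_of_irr H.irr₂)
  set φ₁ : Multiplicative F → ℂ := fun a => χ₁ (upHom a) with hφ₁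
  set φ₂ : Multiplicative F → ℂ := fun a => χ₂ (upHom a) with hφ₂
  have hadd : φ₁ + φ₂ = regChar _ + v • fun a => ((1 : Multiplicative F →* ℂˣ) a : ℂ) := by
    ext a
    have e : (φ₁ + φ₂) a = f (upHom a) := by rw [H.add]; rfl
    rw [e]
    by_cases ha : a = 1
    · subst ha
      simp [regChar_one, ← hq, up_zero]
    · simp [regChar_of_ne ha, hv a.toAdd (by simpa using ha)]
  have hD : ∀ t, t ≠ 0 → (χ₁ (up t) - χ₂ (up t)) =
      (if IsSquare t then 1 else -1) * (χ₁ (up 1) - χ₂ (up 1)) := by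
    intro t ht
    split_ifs with hs
    · rw [class_up_of_isSquare (isClass_of_irr H.irr₁) ht hs,
        class_up_of_isSquare (isClass_of_irr H.irr₂) ht hs, one_mul]
    · rw [class_up_of_not_isSquare (isClass_of_irr H.irr₁) hs hε,
        class_up_of_not_isSquare (isClass_of_irr H.irr₂) hs hε, ← H.swap₁ ε hε (up 1),
        ← H.swap₂ ε hε (up 1), gconj_dG_up, mul_one]
      ring
  set D := χ₁ (up 1) - χ₂ (up 1) with hDdef
  have hnorm : D * conj D = Fintype.card F := by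
    have e1 := inner_eq_sum_unitsHom (φ₁ - φ₂) (φ₁ - φ₂)
    have e2 : ∀ θ : Multiplicative F →* ℂˣ, classInner (φ₁ - φ₂) (fun x => (θ x : ℂ)) *
        conj (classInner (φ₁ - φ₂) (fun x => (θ x : ℂ))) = if θ = 1 then 0 else 1 := by
      intro θ
      split_ifs with hθ
      · subst hθ
        have : classInner (φ₁ - φ₂) (fun x => ((1 : Multiplicative F →* ℂˣ) x : ℂ)) = 0 := by
          simp only [classInner, MonoidHom.one_apply, Units.val_one, map_one, mul_one,
            Pi.sub_apply, Finset.sum_sub_distrib]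
          rw [mul_eq_zero, sub_eq_zero]
          right
          rw [← Equiv.sum_comp Multiplicative.ofAdd, ← Equiv.sum_comp Multiplicative.ofAdd]
          exact H.sum_up_eq h2
        rw [this, zero_mul]
      · obtain ⟨m₁, hm₁⟩ := exists_nat_inner c₁ (isChar_of_irr (isIrr_unitsHom θ))
        obtain ⟨m₂, hm₂⟩ := exists_nat_inner c₂ (isChar_of_irr (isIrr_unitsHom θ))
        have hs := congrArg (fun f => classInner f (fun x => (θ x : ℂ))) hadd
        simp only [Char.inner_add_left, Char.inner_smul_left, inner_unitsHom, if_neg (Ne.symm hθ),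
          inner_regChar_left, hm₁, hm₂, map_one, Units.val_one, mul_zero, add_zero] at hs
        have hs' : m₁ + m₂ = 1 := by exact_mod_cast hs
        rw [Char.inner_sub_left, hm₁, hm₂]
        rcases Nat.eq_zero_or_pos m₁ with h0 | h0
        · rw [h0, show m₂ = 1 by omega]; simp
        · rw [show m₁ = 1 by omega, show m₂ = 0 by omega]; simp
    simp only [e2] at e1
    rw [← Finset.add_sum_erase _ _ (Finset.mem_univ 1), if_pos rfl, zero_add,
      Finset.sum_congr rfl (g := fun _ => 1) (fun θ hθ => if_neg (Finset.ne_of_mem_erase hθ)),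
      classInner, ← Finset.add_sum_erase _ _ (Finset.mem_univ 1),
      Finset.sum_congr rfl (g := fun _ => D * conj D)] at e1
    · have hc : Fintype.card (Multiplicative F →* ℂˣ) = Fintype.card F := by
        rw [← Nat.card_eq_fintype_card, card_unitsHom]; simp
      have hd : (φ₁ - φ₂) 1 = 0 := by
        simp only [Pi.sub_apply, hφ₁, hφ₂, map_one, H.degree h2, H.symm.degree h2, sub_self]
      simp only [hd, zero_mul, zero_add, Finset.sum_const, Finset.card_erase_of_mem,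
        Finset.mem_univ, Finset.card_univ, Fintype.card_multiplicative, hc, nsmul_eq_mul, mul_one,
        Nat.card_eq_fintype_card, Nat.cast_sub Fintype.card_pos, Nat.cast_one] at e1
      have := q_ne_zero (F := F)
      have := q_sub_one_ne_zero (F := F)
      field_simp at e1
      exact e1
    · intro a ha
      have := hD a.toAdd (by simpa using Finset.ne_of_mem_erase ha)
      simp only [Pi.sub_apply, hφ₁, hφ₂, upHom_apply, this, map_mul]
      split_ifs <;> simp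
  have hconj : conj D = (if IsSquare (-1 : F) then 1 else -1) * D := by
    rw [← hD (-1) (by simp), ← up_inv, char_inv (isChar_of_irr H.irr₁),
      char_inv (isChar_of_irr H.irr₂), hDdef, map_sub]
  have hodd : Fintype.card F % 2 = 1 := by
    rw [← Nat.odd_iff, ← Nat.card_eq_fintype_card]; exact odd_card_iff.mpr h2
  rw [hconj] at hnorm
  split_ifs at hnorm with hs
  · have h4 := FiniteField.isSquare_neg_one_iff.mp hs
    rw [Even.neg_one_pow (by rw [Nat.even_iff]; omega), ← hnorm]; ring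
  · have h4 : Fintype.card F % 4 = 3 := by
      by_contra h; exact hs (FiniteField.isSquare_neg_one_iff.mpr h)
    rw [Odd.neg_one_pow (by rw [Nat.odd_iff]; omega), ← hnorm]; ring

end HalvesVal

theorem W_gconj (α : MulChar F ℂ) (ε : Fˣ) (g : SL(2, F)) : W α (gconj (dG ε) g) = W α g :=
  class_gconj_of_par (isClass_W α) α (fun _ => W_par α) ε g

theorem W_up (α : MulChar F ℂ) {t : F} (ht : t ≠ 0) : W α (up t) = 1 := by
  rw [W_par α] <;> simp [ht]

theorem exists_halves_W {α : MulChar F ℂ} (h : α ^ 2 = 1) (h1 : α ≠ 1) :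
    ∃ χ₁ χ₂, Halves (W α) χ₁ χ₂ := by
  obtain ⟨χ₁, χ₂, h₁, h₂, hne, hadd⟩ := exists_of_char_inner_self_two (isChar_W α)
    (inner_W_self_of_sq h)
  exact ⟨χ₁, χ₂, halves_of h₁ h₂ hne hadd (W_gconj α) (fun t => W_up α) (by rw [W_one]; ring)
    (by rw [inner_W_one, if_neg h1])⟩

section Torus

variable {c : SL(2, F)} (hc : NoRoot c.1)
include hc

theorem R_gconj (θ : Ct c →* ℂˣ) (ε : Fˣ) (g : SL(2, F)) : R θ (gconj (dG ε) g) = R θ g :=
  class_gconj_of_par (isClass_R θ) (fun a => -extChar θ a) (fun _ => R_par hc θ) ε g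

theorem R_up (θ : Ct c →* ℂˣ) {t : F} (ht : t ≠ 0) : R θ (up t) = -1 := by
  rw [R_par hc θ] <;> simp [ht]

theorem degree_of_inner_R {θ : Ct c →* ℂˣ} (h : θ ^ 2 = 1) (h1 : θ ≠ 1) {φ : SL(2, F) → ℂ}
    (hφ : IsIrrCharacter _ φ) (hne : classInner (R θ) φ ≠ 0) :
    2 * φ 1 = ((Fintype.card F : ℂ) - 1) * classInner (R θ) φ := by
  classical
  have := Fintype.ofFinite (MulChar F ℂ)
  have := Fintype.ofFinite (Ct c →* ℂˣ)
  have := isCyclic_Ct hc
  have h2 := two_ne_zero_of_torus hc h h1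
  have hn1 : φ ≠ 1 := by rintro rfl; exact hne (by rw [inner_R_one, if_neg h1])
  have hnS : φ ≠ St F := by rintro rfl; exact hne (by rw [inner_R_St hc, if_neg h1])
  have hW : ∀ α : MulChar F ℂ, classInner (W α) φ = 0 := by
    intro α
    by_contra hα
    by_cases hα2 : α ^ 2 = 1
    · by_cases hα1 : α = 1
      · rw [hα1, W_one_eq] at hα
        rcases eq_or_eq_of_inner_add_ne_zero isIrr_one isIrr_St hφ hα with e | e
        exacts [hn1 e, hnS e]
      · obtain ⟨χ₁, χ₂, H⟩ := exists_halves_W hα2 hα1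
        obtain ⟨ε, hε⟩ := exists_units_nonsquare h2
        have e1 : classInner (R θ) χ₁ = classInner (R θ) χ₂ := by
          rw [← inner_comp_equiv (gconj (dG ε)) (R θ) χ₁, funext (R_gconj hc θ ε),
            funext (H.swap₁ ε hε)]
        have e2 := inner_R_W hc θ α
        rw [H.add, Char.inner_add_right, e1, ← two_mul, mul_eq_zero] at e2
        have e3 := e2.resolve_left two_ne_zero
        rw [H.add] at hα
        rcases eq_or_eq_of_inner_add_ne_zero H.irr₁ H.irr₂ hφ hα with e | e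
        · exact hne (by rw [e, e1, e3])
        · exact hne (by rw [e, e3])
    · exact hne (by rw [← eq_of_inner_irr_ne_zero (isIrr_W hα2) hφ hα, inner_R_W hc])
  have hR : ∀ η : Ct c →* ℂˣ, η ≠ θ → classInner (R η) φ = 0 := by
    intro η hη
    by_contra hη'
    by_cases hη2 : η ^ 2 = 1
    · by_cases hη1 : η = 1
      · rcases eq_or_eq_of_norm_two (isGen_R η) (inner_R_self_of_sq hc hη2) isIrr_one isIrr_St
          St_ne_one.symm (by simp [inner_R_one, hη1]) (by simp [inner_R_St hc, hη1]) hφ hη'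
          with e | e
        exacts [hn1 e, hnS e]
      · exact hη (unitsHom_order_two_unique hη2 hη1 h h1)
    · apply hne
      rw [← eq_of_inner_irr_ne_zero (isIrr_R hc hη2) hφ hη', inner_R_R hc, if_neg hη.symm, if_neg,
        add_zero]
      rintro rfl
      exact hη (by rw [← hom_inv_eq_iff.mpr (hom_eq_inv_self_iff.mpr h), hom_inv_inv])
  rw [two_mul_degree hc (isChar_of_irr hφ), Finset.sum_eq_single θ (fun η _ => hR η) (by simp)]
  simp [hW]

theorem exists_halves_R {θ : Ct c →* ℂˣ} (h : θ ^ 2 = 1) (h1 : θ ≠ 1) :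
    ∃ χ₁ χ₂, Halves (R θ) χ₁ χ₂ := by
  obtain ⟨χ₁, χ₂, a, b, h₁, h₂, hne, ha, hb, hadd⟩ := exists_of_inner_self_two (isGen_R θ)
    (inner_R_self_of_sq hc h)
  have key : ∀ (φ : SL(2, F) → ℂ) (a : ℤ), IsIrrCharacter _ φ → (a = 1 ∨ a = -1) →
      classInner (R θ) φ = a → a = 1 := by
    intro φ a hφ ha hi
    refine ha.resolve_right ?_
    rintro rfl
    have e := degree_of_inner_R hc h h1 hφ (by rw [hi]; simp)
    obtain ⟨n, hn, hn'⟩ := exists_pos_degree hφ
    rw [hi, hn'] at e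
    have e' : ((2 * n + Fintype.card F : ℕ) : ℂ) = (1 : ℕ) := by
      push_cast at e ⊢; linear_combination e
    have e'' : 2 * n + Fintype.card F = 1 := by exact_mod_cast e'
    omega
  have ha1 := key χ₁ a h₁ ha (by
    rw [hadd, Char.inner_add_left, Char.inner_smul_left, Char.inner_smul_left, inner_irr_self h₁,
      inner_irr_ne h₂ h₁ hne.symm]; simp)
  have hb1 := key χ₂ b h₂ hb (by
    rw [hadd, Char.inner_add_left, Char.inner_smul_left, Char.inner_smul_left, inner_irr_self h₂,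
      inner_irr_ne h₁ h₂ hne]; simp)
  refine ⟨χ₁, χ₂, halves_of h₁ h₂ hne (by rw [hadd, ha1, hb1]; simp) (R_gconj hc θ)
    (fun t => R_up hc θ) (by rw [R_one hc]; ring) (by rw [inner_R_one, if_neg h1])⟩

/-- The list of the irreducible characters of `SL₂`. -/
theorem irr_cases {χ : SL(2, F) → ℂ} (hχ : IsIrrCharacter _ χ) :
    χ = 1 ∨ χ = St F ∨ (∃ α : MulChar F ℂ, α ^ 2 ≠ 1 ∧ χ = W α) ∨
      (∃ θ : Ct c →* ℂˣ, θ ^ 2 ≠ 1 ∧ χ = R θ) ∨
      (∃ (α : MulChar F ℂ) (χ' : SL(2, F) → ℂ), α ^ 2 = 1 ∧ α ≠ 1 ∧ Halves (W α) χ χ') ∨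
      (∃ (θ : Ct c →* ℂˣ) (χ' : SL(2, F) → ℂ), θ ^ 2 = 1 ∧ θ ≠ 1 ∧ Halves (R θ) χ χ') := by
  rcases exists_W_or_R hc hχ with ⟨α, hα⟩ | ⟨θ, hθ⟩
  · by_cases hα2 : α ^ 2 = 1
    · by_cases hα1 : α = 1
      · rw [hα1, W_one_eq] at hα
        rcases eq_or_eq_of_inner_add_ne_zero isIrr_one isIrr_St hχ hα with e | e
        exacts [Or.inl e, Or.inr (Or.inl e)]
      · obtain ⟨χ₁, χ₂, H⟩ := exists_halves_W hα2 hα1
        rw [H.add] at hα
        iterate 4 right
        left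
        rcases eq_or_eq_of_inner_add_ne_zero H.irr₁ H.irr₂ hχ hα with rfl | rfl
        exacts [⟨α, _, hα2, hα1, H⟩, ⟨α, _, hα2, hα1, H.symm⟩]
    · exact Or.inr (Or.inr (Or.inl ⟨α, hα2, (eq_of_inner_irr_ne_zero (isIrr_W hα2) hχ hα).symm⟩))
  · by_cases hθ2 : θ ^ 2 = 1
    · by_cases hθ1 : θ = 1
      · rcases eq_or_eq_of_norm_two (isGen_R θ) (inner_R_self_of_sq hc hθ2) isIrr_one isIrr_St
          St_ne_one.symm (by simp [inner_R_one, hθ1]) (by simp [inner_R_St hc, hθ1]) hχ hθ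
          with e | e
        exacts [Or.inl e, Or.inr (Or.inl e)]
      · obtain ⟨χ₁, χ₂, H⟩ := exists_halves_R hc hθ2 hθ1
        rw [H.add] at hθ
        iterate 5 right
        rcases eq_or_eq_of_inner_add_ne_zero H.irr₁ H.irr₂ hχ hθ with rfl | rfl
        exacts [⟨θ, _, hθ2, hθ1, H⟩, ⟨θ, _, hθ2, hθ1, H.symm⟩]
    · exact Or.inr (Or.inr (Or.inr (Or.inl
        ⟨θ, hθ2, (eq_of_inner_irr_ne_zero (isIrr_R hc hθ2) hχ hθ).symm⟩)))

end Torus

omit [DecidableEq F] in
theorem exists_noRoot_SL : ∃ c : SL(2, F), NoRoot c.1 := by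
  obtain ⟨c, hc⟩ := exists_SL_noRoot (F := F)
  exact ⟨c, (SL_noRoot_iff c).mpr hc⟩

end Cfsg.Agent.Ch2
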