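import Cfsg.Agent.Lib.Char.SL2B
import Cfsg.Agent.Lib.SL2.Unip

/-!
# Characters of `SL₂` sorted by degree
-/

set_option autoImplicit false

open Cfsg Cfsg.Agent.Char Cfsg.Agent.SL2 Matrix
open scoped ComplexConjugate MatrixGroups

namespace Cfsg.Agent.Ch2

variable {F : Type*} [Field F] [Fintype F] [DecidableEq F]

omit [DecidableEq F] in
theorem two_ne_zero_of_odd (h : Odd (Fintype.card F)) : (2 : F) ≠ 0 :=
  odd_card_iff.mp (by rwa [Nat.card_eq_fintype_card])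

omit [DecidableEq F] in
theorem odd_of_two_ne_zero (h : (2 : F) ≠ 0) : Odd (Fintype.card F) := by
  rw [← Nat.card_eq_fintype_card]; exact odd_card_iff.mpr h

omit [DecidableEq F] in
theorem even_of_two_eq_zero (h : (2 : F) = 0) : Even (Fintype.card F) := by
  rw [← Nat.card_eq_fintype_card]; exact even_card_iff.mpr h

omit [Field F] [DecidableEq F] in
theorem cast_half_add (h : Odd (Fintype.card F)) :
    (((Fintype.card F + 1) / 2 : ℕ) : ℂ) = ((Fintype.card F : ℂ) + 1) / 2 := by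
  obtain ⟨k, hk⟩ := h
  rw [hk, show (2 * k + 1 + 1) / 2 = k + 1 by omega]; push_cast; ring

omit [Field F] [DecidableEq F] in
theorem cast_half_sub (h : Odd (Fintype.card F)) :
    (((Fintype.card F - 1) / 2 : ℕ) : ℂ) = ((Fintype.card F : ℂ) - 1) / 2 := by
  obtain ⟨k, hk⟩ := h
  rw [hk, show (2 * k + 1 - 1) / 2 = k by omega]; push_cast; ring

omit [DecidableEq F] in
theorem cast_q_sub_one : ((Fintype.card F - 1 : ℕ) : ℂ) = (Fintype.card F : ℂ) - 1 := by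
  rw [Nat.cast_sub Fintype.card_pos, Nat.cast_one]

section Torus

variable {c : SL(2, F)} (hc : NoRoot c.1)
include hc

/-- The list of the irreducible characters of `SL₂` together with their degrees. -/
theorem irr_cases_deg {χ : SL(2, F) → ℂ} (hχ : IsIrrCharacter _ χ) {n : ℕ} (hn : χ 1 = n) :
    (χ = 1 ∧ n = 1) ∨ (χ = St F ∧ n = Fintype.card F) ∨
      ((∃ α : MulChar F ℂ, α ^ 2 ≠ 1 ∧ χ = W α) ∧ n = Fintype.card F + 1) ∨
      ((∃ θ : Ct c →* ℂˣ, θ ^ 2 ≠ 1 ∧ χ = R θ) ∧ n + 1 = Fintype.card F) ∨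
      ((∃ (α : MulChar F ℂ) (χ' : SL(2, F) → ℂ), α ^ 2 = 1 ∧ α ≠ 1 ∧ Halves (W α) χ χ') ∧
        2 * n = Fintype.card F + 1) ∨
      ((∃ (θ : Ct c →* ℂˣ) (χ' : SL(2, F) → ℂ), θ ^ 2 = 1 ∧ θ ≠ 1 ∧ Halves (R θ) χ χ') ∧
        2 * n + 1 = Fintype.card F) := by
  rcases irr_cases hc hχ with rfl | rfl | ⟨α, h, rfl⟩ | ⟨θ, h, rfl⟩ | ⟨α, χ', h, h1, H⟩ |
    ⟨θ, χ', h, h1, H⟩
  · rw [Pi.one_apply] at hn
    exact Or.inl ⟨rfl, by exact_mod_cast hn.symm⟩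
  · rw [St_one] at hn
    exact Or.inr (Or.inl ⟨rfl, by exact_mod_cast hn.symm⟩)
  · rw [W_one] at hn
    exact Or.inr (Or.inr (Or.inl ⟨⟨α, h, rfl⟩, by exact_mod_cast hn.symm⟩))
  · rw [R_one hc] at hn
    refine Or.inr (Or.inr (Or.inr (Or.inl ⟨⟨θ, h, rfl⟩, ?_⟩)))
    have : ((n + 1 : ℕ) : ℂ) = Fintype.card F := by push_cast; linear_combination -hn
    exact_mod_cast this
  · rw [H.degree (two_ne_zero_of_mulChar h h1), W_one] at hn
    refine Or.inr (Or.inr (Or.inr (Or.inr (Or.inl ⟨⟨α, χ', h, h1, H⟩, ?_⟩))))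
    have : ((2 * n : ℕ) : ℂ) = (Fintype.card F + 1 : ℕ) := by
      push_cast; linear_combination -2 * hn
    exact_mod_cast this
  · rw [H.degree (two_ne_zero_of_torus hc h h1), R_one hc] at hn
    refine Or.inr (Or.inr (Or.inr (Or.inr (Or.inr ⟨⟨θ, χ', h, h1, H⟩, ?_⟩))))
    have : ((2 * n + 1 : ℕ) : ℂ) = (Fintype.card F : ℕ) := by
      push_cast; linear_combination -2 * hn
    exact_mod_cast this

theorem eq_R_of_degree (hq : 4 ≤ Fintype.card F) {χ : SL(2, F) → ℂ} (hχ : IsIrrCharacter _ χ)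
    (h : χ 1 = (Fintype.card F : ℂ) - 1) : ∃ θ : Ct c →* ℂˣ, θ ^ 2 ≠ 1 ∧ χ = R θ := by
  rcases irr_cases_deg hc hχ (h.trans cast_q_sub_one.symm) with
    ⟨_, e⟩ | ⟨_, e⟩ | ⟨_, e⟩ | ⟨h, _⟩ | ⟨_, e⟩ | ⟨_, e⟩
  all_goals first | exact h | omega

theorem halves_R_of_degree (hodd : Odd (Fintype.card F)) (hq : 5 ≤ Fintype.card F)
    {χ : SL(2, F) → ℂ} (hχ : IsIrrCharacter _ χ)
    (h : χ 1 = ((Fintype.card F - 1) / 2 : ℕ)) :
    ∃ (θ : Ct c →* ℂˣ) (χ' : SL(2, F) → ℂ), θ ^ 2 = 1 ∧ θ ≠ 1 ∧ Halves (R θ) χ χ' := by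
  obtain ⟨k, hk⟩ := hodd
  rcases irr_cases_deg hc hχ h with ⟨_, e⟩ | ⟨_, e⟩ | ⟨_, e⟩ | ⟨_, e⟩ | ⟨_, e⟩ | ⟨h, _⟩
  all_goals first | exact h | omega

end Torus

theorem eq_St_of_degree {χ : SL(2, F) → ℂ} (hχ : IsIrrCharacter _ χ)
    (h : χ 1 = (Fintype.card F : ℂ)) : χ = St F := by
  obtain ⟨c, hc⟩ := exists_noRoot_SL (F := F)
  have := Fintype.one_lt_card (α := F)
  rcases irr_cases_deg hc hχ h with ⟨_, e⟩ | ⟨h, _⟩ | ⟨_, e⟩ | ⟨_, e⟩ | ⟨_, e⟩ | ⟨_, e⟩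
  all_goals first | exact h | omega

theorem eq_W_of_degree {χ : SL(2, F) → ℂ} (hχ : IsIrrCharacter _ χ)
    (h : χ 1 = (Fintype.card F : ℂ) + 1) : ∃ α : MulChar F ℂ, α ^ 2 ≠ 1 ∧ χ = W α := by
  obtain ⟨c, hc⟩ := exists_noRoot_SL (F := F)
  have := Fintype.one_lt_card (α := F)
  rcases irr_cases_deg hc hχ (n := Fintype.card F + 1) (by simpa using h) with
    ⟨_, e⟩ | ⟨_, e⟩ | ⟨h, _⟩ | ⟨_, e⟩ | ⟨_, e⟩ | ⟨_, e⟩
  all_goals first | exact h | omega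

theorem eq_one_of_degree (hq : 4 ≤ Fintype.card F) {χ : SL(2, F) → ℂ} (hχ : IsIrrCharacter _ χ)
    (h : χ 1 = 1) : χ = 1 := by
  obtain ⟨c, hc⟩ := exists_noRoot_SL (F := F)
  rcases irr_cases_deg hc hχ (n := 1) (by simpa using h) with
    ⟨h, _⟩ | ⟨_, e⟩ | ⟨_, e⟩ | ⟨_, e⟩ | ⟨_, e⟩ | ⟨_, e⟩
  all_goals first | exact h | omega

theorem halves_W_of_degree (hodd : Odd (Fintype.card F)) (hq : 5 ≤ Fintype.card F)
    {χ : SL(2, F) → ℂ} (hχ : IsIrrCharacter _ χ)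
    (h : χ 1 = ((Fintype.card F + 1) / 2 : ℕ)) :
    ∃ (α : MulChar F ℂ) (χ' : SL(2, F) → ℂ), α ^ 2 = 1 ∧ α ≠ 1 ∧ Halves (W α) χ χ' := by
  obtain ⟨c, hc⟩ := exists_noRoot_SL (F := F)
  obtain ⟨k, hk⟩ := hodd
  rcases irr_cases_deg hc hχ h with ⟨_, e⟩ | ⟨_, e⟩ | ⟨_, e⟩ | ⟨_, e⟩ | ⟨h, _⟩ | ⟨_, e⟩
  all_goals first | exact h | omega

theorem Halves.eq_or_eq {f χ₁ χ₂ ψ₁ ψ₂ : SL(2, F) → ℂ} (H : Halves f χ₁ χ₂) (K : Halves f ψ₁ ψ₂) :
    ψ₁ = χ₁ ∨ ψ₁ = χ₂ := by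
  refine eq_or_eq_of_inner_add_ne_zero H.irr₁ H.irr₂ K.irr₁ ?_
  rw [← H.add, K.add, Char.inner_add_left, inner_irr_self K.irr₁,
    inner_irr_ne K.irr₂ K.irr₁ K.ne.symm]
  simp

theorem Halves.add_eq_of_ne {f χ₁ χ₂ ψ₁ ψ₂ : SL(2, F) → ℂ} (H : Halves f χ₁ χ₂)
    (K : Halves f ψ₁ ψ₂) (hne : χ₁ ≠ ψ₁) : f = χ₁ + ψ₁ := by
  rw [(H.eq_or_eq K).resolve_left hne.symm]; exact H.add

theorem card_irr_eq_one {G : Type*} [Group G] {p : (G → ℂ) → Prop} {χ₀ : G → ℂ}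
    (h₀ : IsIrrCharacter G χ₀) (hp : p χ₀) (h : ∀ χ, IsIrrCharacter G χ → p χ → χ = χ₀) :
    Nat.card {χ : IrrCharacter G // p χ} = 1 := by
  rw [Nat.card_eq_one_iff_exists]
  exact ⟨⟨⟨χ₀, h₀⟩, hp⟩, fun χ => Subtype.ext (Subtype.ext (h _ χ.1.2 χ.2))⟩

theorem card_irr_eq_two {G : Type*} [Group G] {p : (G → ℂ) → Prop} {χ₁ χ₂ : G → ℂ}
    (h₁ : IsIrrCharacter G χ₁) (h₂ : IsIrrCharacter G χ₂) (hne : χ₁ ≠ χ₂) (hp₁ : p χ₁)
    (hp₂ : p χ₂) (h : ∀ χ, IsIrrCharacter G χ → p χ → χ = χ₁ ∨ χ = χ₂) :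
    Nat.card {χ : IrrCharacter G // p χ} = 2 := by
  rw [Nat.card_eq_two_iff]
  refine ⟨⟨⟨χ₁, h₁⟩, hp₁⟩, ⟨⟨χ₂, h₂⟩, hp₂⟩, fun e => hne (congrArg (fun x => x.1.1) e), ?_⟩
  rw [Set.eq_univ_iff_forall]
  intro χ
  rcases h _ χ.1.2 χ.2 with e | e
  · exact Or.inl (Subtype.ext (Subtype.ext e))
  · exact Or.inr (Subtype.ext (Subtype.ext e))

theorem card_irr_eq_card_set {G : Type*} [Group G] (p : (G → ℂ) → Prop) :
    Nat.card {χ : IrrCharacter G // p χ} =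
      Nat.card ({χ | IsIrrCharacter G χ ∧ p χ} : Set (G → ℂ)) :=
  Nat.card_congr (Equiv.subtypeSubtypeEquivSubtypeInter _ _)

theorem two_mul_card_W : 2 * Nat.card {χ : IrrCharacter SL(2, F) //
    (χ : SL(2, F) → ℂ) 1 = (Fintype.card F : ℂ) + 1} =
      Fintype.card F - 1 - Nat.card {α : MulChar F ℂ // α ^ 2 = 1} := by
  rw [card_irr_eq_card_set (fun χ => χ 1 = (Fintype.card F : ℂ) + 1),
    two_mul_card_of_involutive (fun α : MulChar F ℂ => α⁻¹) inv_involutive W]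
  · rw [← Nat.card_eq_fintype_card, ← card_mulChar, ← card_subtype_not]
    exact Nat.card_congr (Equiv.subtypeEquivRight fun α => by
      rw [Ne, eq_comm, inv_eq_self_iff_sq])
  · intro χ
    constructor
    · rintro ⟨h1, h2⟩
      obtain ⟨α, hα, rfl⟩ := eq_W_of_degree h1 h2
      exact ⟨α, by rwa [Ne, eq_comm, inv_eq_self_iff_sq], rfl⟩
    · rintro ⟨α, hα, rfl⟩
      exact ⟨isIrr_W (by rwa [Ne, eq_comm, inv_eq_self_iff_sq] at hα), W_one α⟩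
  · intro a b _ _; exact W_eq_iff

theorem two_mul_card_R (hq : 4 ≤ Fintype.card F) {c : SL(2, F)} (hc : NoRoot c.1) :
    2 * Nat.card {χ : IrrCharacter SL(2, F) // (χ : SL(2, F) → ℂ) 1 = (Fintype.card F : ℂ) - 1} =
      Fintype.card F + 1 - Nat.card {θ : Ct c →* ℂˣ // θ ^ 2 = 1} := by
  have := isCyclic_Ct hc
  rw [card_irr_eq_card_set (fun χ => χ 1 = (Fintype.card F : ℂ) - 1),
    two_mul_card_of_involutive (fun θ : Ct c →* ℂˣ => θ⁻¹) hom_inv_inv R]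
  · rw [← card_Ct hc, ← card_unitsHom (G := Ct c), ← card_subtype_not]
    exact Nat.card_congr (Equiv.subtypeEquivRight fun α => by
      rw [Ne, eq_comm, hom_eq_inv_self_iff])
  · intro χ
    constructor
    · rintro ⟨h1, h2⟩
      obtain ⟨α, hα, rfl⟩ := eq_R_of_degree hc hq h1 h2
      exact ⟨α, by rwa [Ne, eq_comm, hom_eq_inv_self_iff], rfl⟩
    · rintro ⟨α, hα, rfl⟩
      exact ⟨isIrr_R hc (by rwa [Ne, eq_comm, hom_eq_inv_self_iff] at hα), R_one hc α⟩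
  · intro a b _ _; exact R_eq_iff hc

theorem card_degree_one (hq : 4 ≤ Fintype.card F) :
    Nat.card {χ : IrrCharacter SL(2, F) // (χ : SL(2, F) → ℂ) 1 = 1} = 1 :=
  card_irr_eq_one (p := fun χ => χ 1 = 1) isIrr_one rfl fun _ => eq_one_of_degree hq

theorem card_degree_q :
    Nat.card {χ : IrrCharacter SL(2, F) // (χ : SL(2, F) → ℂ) 1 = (Fintype.card F : ℂ)} = 1 :=
  card_irr_eq_one (p := fun χ => χ 1 = (Fintype.card F : ℂ)) isIrr_St St_one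
    fun _ => eq_St_of_degree

omit [DecidableEq F] in
theorem exists_mulChar_order_two (hodd : Odd (Fintype.card F)) :
    ∃ α : MulChar F ℂ, α ^ 2 = 1 ∧ α ≠ 1 := by
  have h := card_mulChar_sq_eq_one (F := F) (by rwa [Nat.card_eq_fintype_card])
  obtain ⟨a, b, hne, -⟩ := Nat.card_eq_two_iff.mp h
  by_cases ha : a.1 = 1
  · exact ⟨b.1, b.2, fun hb => hne (Subtype.ext (ha.trans hb.symm))⟩
  · exact ⟨a.1, a.2, ha⟩

omit [DecidableEq F] in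
theorem exists_torus_order_two (hodd : Odd (Fintype.card F)) {c : SL(2, F)} (hc : NoRoot c.1) :
    ∃ θ : Ct c →* ℂˣ, θ ^ 2 = 1 ∧ θ ≠ 1 := by
  have := isCyclic_Ct hc
  exact exists_unitsHom_order_two (by rw [card_Ct hc]; exact hodd.add_one.two_dvd)

theorem card_degree_half_add (hodd : Odd (Fintype.card F)) (hq : 5 ≤ Fintype.card F) :
    Nat.card {χ : IrrCharacter SL(2, F) //
      (χ : SL(2, F) → ℂ) 1 = ((Fintype.card F + 1) / 2 : ℕ)} = 2 := by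
  obtain ⟨α, h, h1⟩ := exists_mulChar_order_two hodd
  obtain ⟨χ₁, χ₂, H⟩ := exists_halves_W h h1
  have h2 := two_ne_zero_of_odd hodd
  refine card_irr_eq_two (p := fun χ => χ 1 = ((Fintype.card F + 1) / 2 : ℕ)) H.irr₁ H.irr₂ H.ne
    (by rw [H.degree h2, W_one, cast_half_add hodd])
    (by rw [H.symm.degree h2, W_one, cast_half_add hodd]) fun χ hχ hd => ?_
  obtain ⟨β, χ', hβ, hβ1, K⟩ := halves_W_of_degree hodd hq hχ hd
  rw [mulChar_order_two_unique hβ hβ1 h h1] at K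
  exact H.eq_or_eq K

theorem card_degree_half_sub (hodd : Odd (Fintype.card F)) (hq : 5 ≤ Fintype.card F) :
    Nat.card {χ : IrrCharacter SL(2, F) //
      (χ : SL(2, F) → ℂ) 1 = ((Fintype.card F - 1) / 2 : ℕ)} = 2 := by
  obtain ⟨c, hc⟩ := exists_noRoot_SL (F := F)
  have := isCyclic_Ct hc
  obtain ⟨α, h, h1⟩ := exists_torus_order_two hodd hc
  obtain ⟨χ₁, χ₂, H⟩ := exists_halves_R hc h h1
  have h2 := two_ne_zero_of_odd hodd
  refine card_irr_eq_two (p := fun χ => χ 1 = ((Fintype.card F - 1) / 2 : ℕ)) H.irr₁ H.irr₂ H.ne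
    (by rw [H.degree h2, R_one hc, cast_half_sub hodd])
    (by rw [H.symm.degree h2, R_one hc, cast_half_sub hodd]) fun χ hχ hd => ?_
  obtain ⟨β, χ', hβ, hβ1, K⟩ := halves_R_of_degree hc hodd hq hχ hd
  rw [unitsHom_order_two_unique hβ hβ1 h h1] at K
  exact H.eq_or_eq K

theorem card_degree_add (hodd : Odd (Fintype.card F)) : Nat.card {χ : IrrCharacter SL(2, F) //
    (χ : SL(2, F) → ℂ) 1 = (Fintype.card F : ℂ) + 1} = (Fintype.card F - 3) / 2 := by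
  have h := two_mul_card_W (F := F)
  rw [card_mulChar_sq_eq_one (by rwa [Nat.card_eq_fintype_card])] at h
  omega

theorem card_degree_sub (hodd : Odd (Fintype.card F)) (hq : 4 ≤ Fintype.card F) :
    Nat.card {χ : IrrCharacter SL(2, F) //
      (χ : SL(2, F) → ℂ) 1 = (Fintype.card F : ℂ) - 1} = (Fintype.card F - 1) / 2 := by
  obtain ⟨c, hc⟩ := exists_noRoot_SL (F := F)
  have := isCyclic_Ct hc
  have h := two_mul_card_R hq hc
  rw [card_unitsHom_sq_eq_one (by rw [card_Ct hc]; exact hodd.add_one.two_dvd)] at h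
  omega

omit [Fintype F] [DecidableEq F] in
theorem split_of_diag {g : SL(2, F)} (h : g.1 1 0 = 0) (h2 : g.1 0 0 ^ 2 ≠ 1) :
    g.1 0 0 ≠ g.1 1 1 := by rwa [Ne, SL_upper_eq_iff h]

theorem sum_unitri (f : SL(2, F) → ℂ) :
    (∑ g : SL(2, F), if g.1 1 0 = 0 ∧ g.1 0 0 = 1 ∧ g.1 1 1 = 1 then f g else 0) =
      ∑ t, f (up t) := by
  rw [← Finset.sum_filter]
  symm
  refine Finset.sum_bij (fun t _ => up t) (fun t _ => by simp) (fun a _ b _ h => up_injective h)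
    (fun g hg => ?_) (fun _ _ => rfl)
  simp only [Finset.mem_filter, Finset.mem_univ, true_and] at hg
  exact ⟨g.1 0 1, Finset.mem_univ _, (eq_up_of_entries hg.2.1 hg.2.2 hg.1).symm⟩

omit [DecidableEq F] in
theorem sum_up_eq_cst (f : SL(2, F) → ℂ) : ∑ t, f (up t) = cst f 1 := by simp [cst, dg_one]

end Cfsg.Agent.Ch2
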